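import Cfsg.Agent.H568.LinP
import Cfsg.Agent.H568.ModOrd
import Cfsg.Agent.H568.Row

/-!
# Central covers and linear groups in the rows of S4329 (helper568)

`π : Γ →* S` surjective with central kernel, `Γ` finite, `ρ : Γ →* GL ι F` injective.
* `lift_prime`, `eq_of_lift` : elements of prime order `l ∤ |ker π|` lift to elements with `Y ^ l = 1`, uniquely;
* `pcent_cover`, `noNorm_cover` : `PCent`, `NoNorm` go down to `S`;
* `pcent_lin`, `pcent_form` : `PCent p x` for `x` of prime order `l`, `p` not the characteristic, from `H568/LinP`;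
* `noNorm_irred` : `NoNorm p x` if `p` is the characteristic and a lift of `x` is irreducible;
* `noNorm_of_pcent` : `PCent p x` and no element of order `p` commutes with `x`.
-/

set_option autoImplicit false
set_option linter.unusedSectionVars false

namespace Cfsg.Agent.H568

open Subgroup Module Matrix

theorem noNorm_of_pcent {S : Type*} [Group S] {p : ℕ} [hp : Fact p.Prime] {x : S} (h : PCent p x)
    (hc : ∀ y : S, orderOf y = p → x * y ≠ y * x) : NoNorm p x := by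
  intro Q hQ hn
  by_contra hb
  obtain ⟨y, hy⟩ := Subgroup.ne_bot_iff_exists_ne_one.1 hb
  obtain ⟨j, hj⟩ := hQ y
  have hj' : (y : S) ^ p ^ j = 1 := by simpa using congrArg Subtype.val hj
  obtain ⟨i, -, hi⟩ := (Nat.dvd_prime_pow hp.1).1 (orderOf_dvd_of_pow_eq_one hj')
  have hi0 : i ≠ 0 := by
    rintro rfl
    rw [pow_zero, orderOf_eq_one_iff] at hi
    exact hy (Subtype.ext hi)
  obtain ⟨i', rfl⟩ := Nat.exists_eq_succ_of_ne_zero hi0
  have h6 : orderOf ((y : S) ^ p ^ i') = p := by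
    rw [orderOf_pow_of_dvd (pow_ne_zero _ hp.1.ne_zero) (by rw [hi]; exact pow_dvd_pow _ (Nat.le_succ _)), hi,
      Nat.pow_div (Nat.le_succ _) hp.1.pos]
    simp
  exact hc _ h6 (h Q hQ hn _ (Q.pow_mem y.2 _))

section Cover

variable {Γ S : Type*} [Group Γ] [Finite Γ] [Group S] {π : Γ →* S} (hπ : Function.Surjective π)
  (hker : π.ker ≤ center Γ)

include hπ hker in
/-- An element of prime order `l ∤ |ker π|` lifts to an element `Y` with `Y ^ l = 1`. -/
theorem lift_prime {l : ℕ} (hl : l.Prime) (hlk : ¬ l ∣ Nat.card π.ker) {y : S} (hy : y ^ l = 1) :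
    ∃ Y : Γ, π Y = y ∧ Y ^ l = 1 := by
  obtain ⟨Y0, hY0⟩ := hπ y
  have h1 : Y0 ^ l ∈ π.ker := by rw [MonoidHom.mem_ker, map_pow, hY0, hy]
  have hco : Nat.Coprime (Nat.card π.ker) l := ((Nat.Prime.coprime_iff_not_dvd hl).2 hlk).symm
  let e := powCoprime hco
  obtain ⟨z, hz⟩ := e.surjective ⟨Y0 ^ l, h1⟩
  have hz' : ((z : Γ)) ^ l = Y0 ^ l := congrArg Subtype.val hz
  have hzc : Commute Y0 ((z : Γ)⁻¹) := Commute.inv_right (show Commute Y0 (z : Γ) from mem_center_iff.1 (hker z.2) Y0)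
  refine ⟨Y0 * (z : Γ)⁻¹, ?_, ?_⟩
  · rw [map_mul, map_inv, MonoidHom.mem_ker.1 z.2, inv_one, mul_one, hY0]
  · rw [hzc.mul_pow, inv_pow, hz', mul_inv_cancel]

include hker in
theorem eq_of_lift {l : ℕ} (hl : l.Prime) (hlk : ¬ l ∣ Nat.card π.ker) {Y Z : Γ} (h : π Y = π Z) (hY : Y ^ l = 1)
    (hZ : Z ^ l = 1) : Y = Z := by
  have h1 : Z⁻¹ * Y ∈ π.ker := by rw [MonoidHom.mem_ker, map_mul, map_inv, h, inv_mul_cancel]
  have hc : Commute Z (Z⁻¹ * Y) := mem_center_iff.1 (hker h1) Z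
  have h2 : (Z⁻¹ * Y) ^ l = 1 := by
    have h3 : (Z * (Z⁻¹ * Y)) ^ l = 1 := by rw [mul_inv_cancel_left, hY]
    rwa [hc.mul_pow, hZ, one_mul] at h3
  have hco : Nat.Coprime (Nat.card π.ker) l := ((Nat.Prime.coprime_iff_not_dvd hl).2 hlk).symm
  have h4 : (⟨Z⁻¹ * Y, h1⟩ : π.ker) = 1 := by
    apply (powCoprime hco).injective
    apply Subtype.ext
    change (Z⁻¹ * Y) ^ l = (1 : Γ) ^ l
    rw [h2, one_pow]
  have h5 : Z⁻¹ * Y = 1 := congrArg Subtype.val h4
  exact (inv_mul_eq_one.1 h5).symm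

include hπ hker in
/-- `p`-subgroups of `S` normalised by `π x` lift to `p`-subgroups of `Γ` normalised by `x`. -/
theorem exists_lift_sub {p : ℕ} [hp : Fact p.Prime] (x : Γ) (Q : Subgroup S) (hQ : IsPGroup p Q)
    (hx : π x ∈ normalizer (Q : Set S)) :
    ∃ T : Subgroup Γ, IsPGroup p T ∧ x ∈ normalizer (T : Set Γ) ∧ T.map π = Q := by
  classical
  obtain ⟨R, hR⟩ : ∃ R : Subgroup Γ, R = Q.comap π := ⟨_, rfl⟩
  have hkR : π.ker ≤ R := by rw [hR]; exact ker_le_comap π Q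
  have hxR : ∀ y, y ∈ R ↔ x * y * x⁻¹ ∈ R := by
    intro y
    rw [hR, mem_comap, mem_comap, map_mul, map_mul, map_inv]
    exact mem_normalizer_iff.1 hx _
  -- `R` is nilpotent
  have hnil : Group.IsNilpotent ↥R := by
    have hRQ : ∀ y ∈ R, π y ∈ Q := fun y hy => by rwa [hR, mem_comap] at hy
    let f : ↥R →* ↥Q := (π.comp R.subtype).codRestrict Q (fun y => hRQ y y.2)
    have hf : f.ker ≤ center ↥R := by
      intro y hy
      have h1 : π (y : Γ) = 1 := congrArg Subtype.val (MonoidHom.mem_ker.1 hy)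
      rw [mem_center_iff]
      intro g
      exact Subtype.ext (mem_center_iff.1 (hker h1) g)
    have hSf : Finite S := Finite.of_surjective π hπ
    have hQn : Group.IsNilpotent ↥Q := hQ.isNilpotent
    exact Subgroup.isNilpotent_of_ker_le_center f hf
  obtain ⟨P⟩ : Nonempty (Sylow p ↥R) := inferInstance
  have hPn : (P : Subgroup ↥R).Normal := by
    have h1 := ((Group.isNilpotent_of_finite_tfae (G := ↥R)).out 0 3).1 hnil
    exact h1 p hp P
  refine ⟨(P : Subgroup ↥R).map R.subtype, P.2.map _, ?_, ?_⟩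
  · -- `x` normalises `P`
    rw [mem_normalizer_iff]
    have hxR' : ∀ y : ↥R, x * (y : Γ) * x⁻¹ ∈ R := fun y => (hxR y).1 y.2
    have hxR'' : ∀ y : ↥R, x⁻¹ * (y : Γ) * x ∈ R := fun y => by
      rw [hxR]
      have : x * (x⁻¹ * (y : Γ) * x) * x⁻¹ = y := by group
      rw [this]
      exact y.2
    let φ : ↥R ≃* ↥R :=
      { toFun := fun y => ⟨x * y * x⁻¹, hxR' y⟩
        invFun := fun y => ⟨x⁻¹ * y * x, hxR'' y⟩
        left_inv := fun y => Subtype.ext (by show x⁻¹ * (x * (y : Γ) * x⁻¹) * x = y; group)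
        right_inv := fun y => Subtype.ext (by show x * (x⁻¹ * (y : Γ) * x) * x⁻¹ = y; group)
        map_mul' := fun y z => Subtype.ext (by
          show x * ((y : Γ) * z) * x⁻¹ = (x * (y : Γ) * x⁻¹) * (x * (z : Γ) * x⁻¹); group) }
    have hchar : (P : Subgroup ↥R).Characteristic := Sylow.characteristic_of_normal P hPn
    have hφ : ∀ y : ↥R, y ∈ (P : Subgroup ↥R) ↔ φ y ∈ (P : Subgroup ↥R) := by
      intro y
      have h1 := Subgroup.characteristic_iff_comap_eq.1 hchar φ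
      rw [← Subgroup.ext_iff.1 h1 y]
      rfl
    intro y
    constructor
    · rintro ⟨z, hz, rfl⟩
      exact ⟨φ z, (hφ z).1 hz, rfl⟩
    · rintro ⟨z, hz, hzy⟩
      have hzy' : (z : Γ) = x * y * x⁻¹ := hzy
      have hyR : y ∈ R := by
        rw [hxR, ← hzy']
        exact z.2
      refine ⟨⟨y, hyR⟩, ?_, rfl⟩
      have h2 : φ ⟨y, hyR⟩ = z := Subtype.ext hzy'.symm
      have h3 := hφ ⟨y, hyR⟩
      rw [h2] at h3
      exact h3.2 hz
  · -- `π P = Q`
    apply le_antisymm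
    · rintro _ ⟨_, ⟨z, hz, rfl⟩, rfl⟩
      have hRQ : ∀ y ∈ R, π y ∈ Q := fun y hy => by rwa [hR, mem_comap] at hy
      exact hRQ z z.2
    · intro y hy
      obtain ⟨Y, rfl⟩ := hπ y
      have hYR : Y ∈ R := by rw [hR, mem_comap]; exact hy
      -- `Y ^ m ∈ P` for `m` prime to `p`
      have hYm : (⟨Y, hYR⟩ : ↥R) ^ (P : Subgroup ↥R).index ∈ (P : Subgroup ↥R) :=
        Subgroup.pow_index_mem _ _
      obtain ⟨k, hk⟩ := hQ ⟨π Y, hy⟩
      have hk' : π Y ^ p ^ k = 1 := by simpa using congrArg Subtype.val hk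
      have hco : Nat.Coprime (P : Subgroup ↥R).index (p ^ k) := by
        apply Nat.Coprime.pow_right
        exact ((Nat.Prime.coprime_iff_not_dvd hp.1).2 P.not_dvd_index).symm
      obtain ⟨m, hm⟩ := exists_pow_eq_self_of_coprime (n := (P : Subgroup ↥R).index) (x := π Y)
        (Nat.Coprime.coprime_dvd_right (orderOf_dvd_of_pow_eq_one hk') hco)
      refine ⟨(Y ^ (P : Subgroup ↥R).index) ^ m, ?_, ?_⟩
      · have h3 : Y ^ (P : Subgroup ↥R).index ∈ (P : Subgroup ↥R).map R.subtype :=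
          ⟨⟨Y, hYR⟩ ^ (P : Subgroup ↥R).index, hYm, rfl⟩
        exact Subgroup.pow_mem _ h3 _
      · rw [map_pow, map_pow, hm]

include hπ hker in
theorem pcent_cover {p : ℕ} [hp : Fact p.Prime] {x : Γ} (h : PCent p x) : PCent p (π x) := by
  intro Q hQ hx y hy
  obtain ⟨T, hT, hxT, rfl⟩ := exists_lift_sub hπ hker x Q hQ hx
  obtain ⟨Y, hY, rfl⟩ := hy
  rw [← map_mul, h T hT hxT Y hY, map_mul]

include hπ hker in
theorem noNorm_cover {p : ℕ} [hp : Fact p.Prime] {x : Γ}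
    (h : ∀ T : Subgroup Γ, IsPGroup p T → x ∈ normalizer (T : Set Γ) → T ≤ π.ker) : NoNorm p (π x) := by
  intro Q hQ hx
  obtain ⟨T, hT, hxT, rfl⟩ := exists_lift_sub hπ hker x Q hQ hx
  rw [eq_bot_iff]
  rintro _ ⟨Y, hY, rfl⟩
  rw [mem_bot]
  exact h T hT hxT hY

section Lin

variable {F : Type*} [Field F] {ι : Type*} [Fintype ι] [DecidableEq ι] (ρ : Γ →* GL ι F)
  (hρ : Function.Injective ρ)

include hπ hker hρ in
/-- `PCent` in degree less than `l`, `p` not the characteristic. -/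
theorem pcent_lin {p l : ℕ} [hp : Fact p.Prime] (hp2 : p ≠ 2) (hl : l.Prime) (hlp : l ≠ p) (hpF : (p : F) ≠ 0)
    (hcard : Fintype.card ι < l) {x : S} (hx : x ^ l = 1) : PCent p x := by
  obtain ⟨X, rfl⟩ := hπ x
  apply pcent_cover hπ hker
  intro Q hQ hxn
  refine linP ρ hp.1 hp2 hl hlp hpF Q hQ (fun y _ hy => hρ (hy.trans (map_one ρ).symm)) X hxn ?_ hcard
  intro y _
  have h1 : X ^ l ∈ center Γ := hker (by rw [MonoidHom.mem_ker, map_pow, hx])
  exact (mem_center_iff.1 h1 y).symm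

include hπ hker hρ in
/-- `PCent` in degree less than `2 l` for isometries of a nondegenerate bilinear form. -/
theorem pcent_form {p l : ℕ} [hp : Fact p.Prime] (hp2 : p ≠ 2) (hl : l.Prime) (hlp : l ≠ p) (hpF : (p : F) ≠ 0)
    (hl2 : l ≠ 2) (hcard : Fintype.card ι < 2 * l) (J : Matrix ι ι F) (hJ : J.det ≠ 0)
    (hQJ : ∀ y : Γ, (ρ y : Matrix ι ι F)ᵀ * J * (ρ y : Matrix ι ι F) = J) {x : S} (hx : x ^ l = 1) :
    PCent p x := by
  obtain ⟨X, rfl⟩ := hπ x
  apply pcent_cover hπ hker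
  intro Q hQ hxn
  refine linP_form ρ hp.1 hp2 hl hlp hpF Q hQ (fun y _ hy => hρ (hy.trans (map_one ρ).symm)) X hxn ?_ hl2 hcard J hJ
    (fun y _ => hQJ y)
  intro y _
  have h1 : X ^ l ∈ center Γ := hker (by rw [MonoidHom.mem_ker, map_pow, hx])
  exact (mem_center_iff.1 h1 y).symm

end Lin

end Cover

/-- A `p`-group in characteristic `p` normalised by an irreducible map acts trivially. -/
theorem trivial_of_irred {F V Γ : Type*} [Field F] [Finite F] [AddCommGroup V] [Module F V] [FiniteDimensional F V]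
    [Group Γ] {p : ℕ} [hp : Fact p.Prime] (hpF : (p : F) = 0) [Nontrivial V] (ρ : Γ →* End F V) (T : Subgroup Γ)
    [Finite T] (hT : IsPGroup p T) (x : Γ) (hx : x ∈ normalizer (T : Set Γ))
    (hirr : ∀ W : Submodule F V, (∀ w ∈ W, ρ x w ∈ W) → W = ⊥ ∨ W = ⊤) : ∀ y ∈ T, ρ y = 1 := by
  have hV : Finite V := Module.finite_of_finite F
  let act : MulAction ↥T V :=
    { smul := fun y v => ρ y v
      one_smul := fun v => by show ρ ((1 : ↥T) : Γ) v = v; rw [OneMemClass.coe_one, map_one]; rfl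
      mul_smul := fun y z v => by
        show ρ ((y * z : ↥T) : Γ) v = ρ (y : Γ) (ρ (z : Γ) v)
        rw [Subgroup.coe_mul, map_mul]; rfl }
  have hsm : ∀ (y : ↥T) (v : V), y • v = ρ (y : Γ) v := fun _ _ => rfl
  let W : Submodule F V :=
    { carrier := {v | ∀ y ∈ T, ρ y v = v}
      add_mem' := fun {u v} hu hv y hy => by rw [map_add, hu y hy, hv y hy]
      zero_mem' := fun y _ => map_zero _
      smul_mem' := fun c v hv y hy => by rw [map_smul, hv y hy] }
  have hW : ∀ v, v ∈ W ↔ ∀ y ∈ T, ρ y v = v := fun _ => Iff.rfl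
  rcases hirr W (fun w hw => by
    rw [hW] at hw ⊢
    intro y hy
    have h1 : x⁻¹ * y * x ∈ T := by
      have h2 := (mem_normalizer_iff.1 hx (x⁻¹ * y * x))
      rw [h2]
      have : x * (x⁻¹ * y * x) * x⁻¹ = y := by group
      rwa [this]
    have h3 := hw _ h1
    have h4 : ρ y (ρ x w) = ρ x (ρ (x⁻¹ * y * x) w) := by
      rw [← Module.End.mul_apply, ← Module.End.mul_apply, ← map_mul, ← map_mul]
      congr 2
      group
    rw [h4, h3]) with h | h
  · exfalso
    have h1 := hT.card_modEq_card_fixedPoints V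
    have h2 : p ∣ Nat.card V := by
      obtain ⟨v, hv⟩ := exists_ne (0 : V)
      have h3 : p • v = 0 := by rw [← Nat.cast_smul_eq_nsmul F, hpF, zero_smul]
      have h4 : addOrderOf v = p := addOrderOf_eq_prime h3 hv
      rw [← h4]
      exact addOrderOf_dvd_natCard v
    have h3 : Nat.card ↥(MulAction.fixedPoints ↥T V) = 1 := by
      rw [Nat.card_eq_one_iff_unique]
      refine ⟨⟨fun a b => ?_⟩, ⟨⟨0, fun y => by rw [hsm, map_zero]⟩⟩⟩
      have h4 : ∀ a : ↥(MulAction.fixedPoints ↥T V), (a : V) = 0 := by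
        intro a
        have h5 : (a : V) ∈ W := (hW _).2 fun y hy => a.2 ⟨y, hy⟩
        rwa [h, Submodule.mem_bot] at h5
      exact Subtype.ext ((h4 a).trans (h4 b).symm)
    rw [h3] at h1
    have h4 := (Nat.modEq_zero_iff_dvd.2 h2).symm.trans h1
    have h5 := (Nat.modEq_iff_dvd' (Nat.zero_le 1)).1 h4
    exact hp.1.one_lt.ne' (Nat.dvd_one.1 h5)
  · intro y hy
    ext v
    exact (hW v).1 (h ▸ Submodule.mem_top) y hy

section Irr

variable {F ι : Type*} [Field F] [Finite F] [Fintype ι] [DecidableEq ι] [Nonempty ι] {Γ S : Type*} [Group Γ] [Finite Γ]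
  [Group S]

/-- The operators of a matrix representation. -/
noncomputable def opF (ρ : Γ →* GL ι F) : Γ →* End F (ι → F) :=
  ((Matrix.toLinAlgEquiv' : Matrix ι ι F ≃ₐ[F] _).toAlgHom.toMonoidHom.comp (Units.coeHom _)).comp ρ

theorem opF_apply (ρ : Γ →* GL ι F) (g : Γ) (v : ι → F) : opF ρ g v = (ρ g : Matrix ι ι F) *ᵥ v := rfl

theorem opF_inj (ρ : Γ →* GL ι F) {g h : Γ} (hgh : opF ρ g = opF ρ h) : ρ g = ρ h := by
  apply Units.ext
  exact Matrix.toLinAlgEquiv'.injective hgh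

/-- `p` the characteristic, a lift of `x` irreducible: `x` normalises no nontrivial `p`-subgroup. -/
theorem noNorm_irred {π : Γ →* S} (hπ : Function.Surjective π) (hker : π.ker ≤ center Γ) (ρ : Γ →* GL ι F)
    (hρ : Function.Injective ρ) {p : ℕ} [hp : Fact p.Prime] (hpF : (p : F) = 0) {x : Γ}
    (hirr : ∀ W : Submodule F (ι → F), (∀ w ∈ W, (ρ x : Matrix ι ι F) *ᵥ w ∈ W) → W = ⊥ ∨ W = ⊤) :
    NoNorm p (π x) := by
  apply noNorm_cover hπ hker
  intro T hT hx y hy
  have h1 := trivial_of_irred hpF (opF ρ) T hT x hx hirr y hy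
  have h2 : ρ y = ρ 1 := opF_inj ρ (h1.trans (map_one _).symm)
  rw [hρ h2]
  exact one_mem _

end Irr

end Cfsg.Agent.H568
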