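import Mathlib

/-!
Norm maps `w ↦ ∏ j < p, t ^ j w` for automorphisms `t` of order `p` of an abelian group of order
prime to `p`, and a separation lemma for groups acting on such a group.
-/

set_option autoImplicit false

namespace Cfsg.Agent.H568.NormMap

open Subgroup

variable {V : Type*} [CommGroup V]

/-- The norm map of `t`. -/
def nm (p : ℕ) (t : MulAut V) (w : V) : V := ∏ j ∈ Finset.range p, (t ^ j) w

theorem nm_mul (p : ℕ) (t : MulAut V) (v w : V) : nm p t (v * w) = nm p t v * nm p t w := by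
  unfold nm
  rw [← Finset.prod_mul_distrib]
  exact Finset.prod_congr rfl fun j _ => map_mul _ _ _

theorem nm_of_fix (p : ℕ) {t : MulAut V} {w : V} (h : t w = w) : nm p t w = w ^ p := by
  unfold nm
  have h1 : ∀ j : ℕ, (t ^ j) w = w := by
    intro j
    induction j with
    | zero => simp
    | succ j ih => rw [pow_succ, MulAut.mul_apply, h, ih]
  simp only [h1, Finset.prod_const, Finset.card_range]

theorem apply_nm {p : ℕ} {t : MulAut V} (ht : t ^ p = 1) (w : V) : t (nm p t w) = nm p t w := by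
  unfold nm
  rw [map_prod]
  have h1 : ∀ j : ℕ, t ((t ^ j) w) = (t ^ (j + 1)) w := by
    intro j
    rw [pow_succ', MulAut.mul_apply]
  simp only [h1]
  have h2 := Finset.prod_range_succ (fun j => (t ^ j) w) p
  have h3 := Finset.prod_range_succ' (fun j => (t ^ j) w) p
  rw [h2] at h3
  rw [ht] at h3
  simp only [pow_zero] at h3
  exact (mul_right_cancel h3).symm

theorem fix_pow {t : MulAut V} {w : V} (h : t w = w) (n : ℕ) : (t ^ n) w = w := by
  induction n with
  | zero => simp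
  | succ j ih => rw [pow_succ, MulAut.mul_apply, h, ih]

theorem fix_inv {t : MulAut V} {w : V} (h : t w = w) : t⁻¹ w = w := by
  rw [MulAut.inv_apply, MulEquiv.symm_apply_eq]; exact h.symm

theorem fix_zpow {t : MulAut V} {w : V} (h : t w = w) (n : ℤ) : (t ^ n) w = w := by
  cases n with
  | ofNat n => simpa using fix_pow h n
  | negSucc n =>
    rw [zpow_negSucc]
    exact fix_inv (fix_pow h _)

/-- If `z ^ m` fixes `w`, `p ∤ m`, `z ^ p = 1`, then `z` fixes `w`. -/
theorem fix_of_zpow {p : ℕ} (hp : p.Prime) {z : MulAut V} (hz : z ^ p = 1) {m : ℤ}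
    (hm : ¬ (p : ℤ) ∣ m) {w : V} (h : (z ^ m) w = w) : z w = w := by
  have hc : IsCoprime m (p : ℤ) := by
    rw [isCoprime_comm]
    exact (Prime.coprime_iff_not_dvd (Nat.prime_iff_prime_int.mp hp)).mpr hm
  obtain ⟨a, b, hab⟩ := hc
  have h1 : z = (z ^ m) ^ a := by
    have : z ^ (a * m + b * p) = (z ^ m) ^ a := by
      rw [zpow_add, mul_comm a m, zpow_mul, mul_comm b, zpow_mul, zpow_natCast, hz, one_zpow, mul_one]
    rw [← this, hab, zpow_one]
  rw [h1]
  exact fix_zpow h a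

theorem nm_zpow_eq_one {p : ℕ} (hp : p.Prime) {z : MulAut V} (hz : z ^ p = 1)
    {m : ℤ} (hm : ¬ (p : ℤ) ∣ m) {w : V} (hw : z (nm p (z ^ m) w) = nm p (z ^ m) w →
      nm p (z ^ m) w = 1) : nm p (z ^ m) w = 1 := by
  apply hw
  refine fix_of_zpow hp hz hm (apply_nm ?_ w)
  rw [← zpow_natCast, ← zpow_mul, mul_comm, zpow_mul, zpow_natCast, hz, one_zpow]

/-- If `t` fixes `w`, then the norms of `w` under `t * z ^ m` and `z ^ m` agree. -/
theorem nm_mul_zpow {p : ℕ} {t s : MulAut V} (hc : Commute t s) {w : V}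
    (h : t w = w) : nm p (t * s) w = nm p s w := by
  unfold nm
  refine Finset.prod_congr rfl fun j _ => ?_
  rw [hc.mul_pow, (hc.pow_pow j j).eq, MulAut.mul_apply, fix_pow h]

theorem pow_inj [Finite V] {p : ℕ} (hp : p.Prime) (hV : ¬ p ∣ Nat.card V) {v w : V} (h : v ^ p = w ^ p) :
    v = w := by
  have h1 : (v * w⁻¹) ^ p = 1 := by rw [mul_pow, inv_pow, h, mul_inv_cancel]
  have h2 := orderOf_dvd_of_pow_eq_one h1
  have h3 := orderOf_dvd_natCard (v * w⁻¹)
  rcases (Nat.dvd_prime hp).mp h2 with h4 | h4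
  · rw [orderOf_eq_one_iff] at h4
    exact mul_inv_eq_one.mp h4
  · rw [h4] at h3
    exact absurd h3 hV

/-- The basic computation: `∏ k < p, nm (x * z ^ k) w = w ^ p` if `z` acts fixed point freely. -/
theorem prod_nm {p : ℕ} (hp : p.Prime) {x z : MulAut V} (hxz : Commute x z) (hz : z ^ p = 1)
    (w : V) (hw : ∀ j : ℕ, ∀ m : ℤ, z (nm p (z ^ m) ((x ^ j) w)) = nm p (z ^ m) ((x ^ j) w) →
      nm p (z ^ m) ((x ^ j) w) = 1) :
    ∏ k ∈ Finset.range p, nm p (x * z ^ k) w = w ^ p := by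
  unfold nm
  rw [Finset.prod_comm]
  have h1 : ∀ j ∈ Finset.range p, j ≠ 0 →
      ∏ k ∈ Finset.range p, ((x * z ^ k) ^ j) w = 1 := by
    intro j hj hj0
    have h2 : ∏ k ∈ Finset.range p, ((x * z ^ k) ^ j) w = nm p (z ^ (j : ℤ)) ((x ^ j) w) := by
      unfold nm
      refine Finset.prod_congr rfl fun k _ => ?_
      have hc : Commute x (z ^ k) := hxz.pow_right k
      rw [hc.mul_pow, (hc.pow_pow j j).eq, MulAut.mul_apply, zpow_natCast, ← pow_mul, ← pow_mul,
        mul_comm]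
    rw [h2]
    refine nm_zpow_eq_one hp hz ?_ (hw j j)
    rw [Int.natCast_dvd_natCast]
    intro hd
    exact absurd (Nat.le_of_dvd (Nat.pos_of_ne_zero hj0) hd) (not_le.mpr (Finset.mem_range.mp hj))
  rw [Finset.prod_eq_single 0 h1 (fun h => absurd (Finset.mem_range.mpr hp.pos) h)]
  simp

theorem exists_ne_one {G : Type*} [Group G] {W : Subgroup G} (hW : W ≠ ⊥) :
    ∃ w ∈ W, w ≠ 1 := by
  by_contra h
  push Not at h
  exact hW (eq_bot_iff.mpr fun x hx => Subgroup.mem_bot.mpr (h x hx))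

/-- Two commuting automorphisms of order `p`: if `z` has no fixed points in `W` then some
`x * z ^ k` has. -/
theorem exists_fixed [Finite V] {p : ℕ} (hp : p.Prime) (hV : ¬ p ∣ Nat.card V) {x z : MulAut V}
    (hxz : Commute x z) (hx : x ^ p = 1) (hz : z ^ p = 1) {W : Subgroup V} (hW : W ≠ ⊥)
    (hxW : ∀ w ∈ W, x w ∈ W) (hzW : ∀ w ∈ W, z w ∈ W) (hf : ∀ w ∈ W, z w = w → w = 1) :
    ∃ k : ℕ, ∃ w ∈ W, w ≠ 1 ∧ (x * z ^ k) w = w := by
  obtain ⟨w, hw, hw1⟩ := exists_ne_one hW
  by_contra hcon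
  push Not at hcon
  have hxj : ∀ j : ℕ, ∀ w ∈ W, (x ^ j) w ∈ W := by
    intro j
    induction j with
    | zero => intro w hw; simpa using hw
    | succ j ih => intro w hw; rw [pow_succ, MulAut.mul_apply]; exact ih _ (hxW w hw)
  have hzj : ∀ j : ℕ, ∀ w ∈ W, (z ^ j) w ∈ W := by
    intro j
    induction j with
    | zero => intro w hw; simpa using hw
    | succ j ih => intro w hw; rw [pow_succ, MulAut.mul_apply]; exact ih _ (hzW w hw)
  have hnat : ∀ m : ℤ, ∃ n : ℕ, z ^ m = z ^ n := by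
    intro m
    have h1 : z ∈ Subgroup.zpowers z := Subgroup.mem_zpowers z
    have hfo : IsOfFinOrder z := isOfFinOrder_iff_pow_eq_one.mpr ⟨p, hp.pos, hz⟩
    obtain ⟨n, hn⟩ := (hfo.mem_powers_iff_mem_zpowers.mpr ⟨m, rfl⟩ : z ^ m ∈ Submonoid.powers z)
    exact ⟨n, hn.symm⟩
  have hnm : ∀ (t : MulAut V), (∀ w ∈ W, t w ∈ W) → ∀ w ∈ W, nm p t w ∈ W := by
    intro t ht w hw
    refine Subgroup.prod_mem _ fun j _ => ?_
    have : ∀ j : ℕ, (t ^ j) w ∈ W := by
      intro j
      induction j with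
      | zero => simpa using hw
      | succ j ih => rw [pow_succ', MulAut.mul_apply]; exact ht _ ih
    exact this j
  have h1 := prod_nm hp hxz hz w (fun j m hj => by
    obtain ⟨n, hn⟩ := hnat m
    refine hf _ (hnm _ ?_ _ (hxj j w hw)) hj
    rw [hn]; exact hzj n)
  have h2 : ∀ k ∈ Finset.range p, nm p (x * z ^ k) w = 1 := by
    intro k _
    by_contra hne
    refine hcon k (nm p (x * z ^ k) w) (hnm _ ?_ w hw) hne (apply_nm ?_ w)
    · intro w hw
      rw [MulAut.mul_apply]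
      exact hxW _ (hzj k w hw)
    · rw [(hxz.pow_right k).mul_pow, hx, ← pow_mul, mul_comm, pow_mul, hz, one_pow, mul_one]
  rw [Finset.prod_eq_one h2] at h1
  exact hw1 (pow_inj hp hV (by rw [← h1, one_pow]))

end Cfsg.Agent.H568.NormMap
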