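import Mathlib
import Cfsg.Agent.Transfer.PGroupNormal
import Cfsg.Agent.S0126

/-!
A normal `p`-subgroup `N` of `H`, `p` odd, without noncyclic elementary abelian `H`-invariant
subgroups: either every nontrivial element has the same subgroup of order `p` among its powers, or
there is an `H`-invariant noncentral subgroup `D` of exponent `p` with `[D, N]` of order `p`.
-/

set_option autoImplicit false

namespace Cfsg.Agent.H568.PGrp

open Subgroup Cfsg.Agent.Transfer.PGroupNormal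

theorem mem_zpowers_swap {X : Type*} [Group X] {p : ℕ} (hp : p.Prime) {z w : X} (hw : w ^ p = 1)
    (hz : z ∈ zpowers w) (hz1 : z ≠ 1) : w ∈ zpowers z := by
  obtain ⟨m, hm⟩ := hz
  have hm' : w ^ m = z := hm
  have hpm : ¬ (p : ℤ) ∣ m := by
    rintro ⟨l, rfl⟩
    apply hz1
    rw [← hm', zpow_mul, zpow_natCast, hw, one_zpow]
  have hc : IsCoprime m (p : ℤ) := by
    rw [isCoprime_comm]
    exact (Prime.coprime_iff_not_dvd (Nat.prime_iff_prime_int.mp hp)).mpr hpm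
  obtain ⟨a, b, hab⟩ := hc
  refine ⟨a, ?_⟩
  change z ^ a = w
  rw [← hm', ← zpow_mul]
  have : m * a = 1 - b * p := by linarith
  rw [this, zpow_sub, zpow_one, mul_comm b, zpow_mul, zpow_natCast, hw, one_zpow, inv_one,
    mul_one]

/-- Between normal subgroups `Y < K` of a `p`-group there is a central element of order `p`
modulo `Y`. -/
theorem exists_mod {P : Type*} [Group P] [Finite P] {p : ℕ} [Fact p.Prime] (hP : IsPGroup p P)
    {Y K : Subgroup P} (hY : Y.Normal) (hK : K.Normal) (hYK : Y < K) :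
    ∃ x ∈ K, x ∉ Y ∧ x ^ p ∈ Y ∧ ∀ g : P, g * x * g⁻¹ * x⁻¹ ∈ Y := by
  have hK' : (K.map (QuotientGroup.mk' Y)).Normal := hK.map _ (QuotientGroup.mk'_surjective Y)
  have hne : K.map (QuotientGroup.mk' Y) ≠ ⊥ := by
    intro h
    rw [Subgroup.map_eq_bot_iff, QuotientGroup.ker_mk'] at h
    exact absurd h (not_le_of_gt hYK)
  obtain ⟨z, ⟨x, hx, rfl⟩, hzc, hz⟩ :=
    exists_mem_inf_center_orderOf (hP.to_quotient Y) (K.map (QuotientGroup.mk' Y)) hne
  refine ⟨x, hx, ?_, ?_, fun g => ?_⟩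
  · intro h
    have h1 : QuotientGroup.mk' Y x = 1 := (QuotientGroup.eq_one_iff x).mpr h
    rw [h1, orderOf_one] at hz
    exact (Fact.out : p.Prime).one_lt.ne hz
  · rw [← QuotientGroup.eq_one_iff, ← QuotientGroup.mk'_apply, map_pow, ← hz, pow_orderOf_eq_one]
  · rw [← QuotientGroup.eq_one_iff, ← QuotientGroup.mk'_apply]
    have h1 := Subgroup.mem_center_iff.mp hzc (QuotientGroup.mk' Y g)
    rw [map_mul, map_mul, map_mul, map_inv, map_inv, h1]
    group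

/-- The conclusion of the analysis. -/
structure Good {X : Type*} [Group X] (p : ℕ) (H N : Subgroup X) (z : X) (D : Subgroup X) : Prop where
  le : D ≤ N
  inv : ∀ h ∈ H, ∀ d ∈ D, h * d * h⁻¹ ∈ D
  exp : ∀ d ∈ D, d ^ p = 1
  comm : ∀ d ∈ D, ∀ g ∈ N, g * d * g⁻¹ * d⁻¹ ∈ zpowers z
  ncomm : ∃ d ∈ D, ∃ g ∈ N, g * d ≠ d * g

/-- The analysis once the maximal invariant abelian subgroup `Y` is known. -/
structure Setup {X : Type*} [Group X] (p : ℕ) (H N : Subgroup X) (z c : X) (Y : Subgroup X) :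
    Prop where
  NH : N ≤ H
  HN : ∀ h ∈ H, ∀ n ∈ N, h * n * h⁻¹ ∈ N
  pg : IsPGroup p N
  YN : Y ≤ N
  HY : ∀ h ∈ H, ∀ y ∈ Y, h * y * h⁻¹ ∈ Y
  Yc : ∀ x ∈ Y, ∀ y ∈ Y, x * y = y * x
  cen : ∀ x ∈ N, (∀ g ∈ N, g * x = x * g) → x ∈ Y
  max : ∀ T : Subgroup X, T ≤ N → (∀ h ∈ H, ∀ y ∈ T, h * y * h⁻¹ ∈ T) →
    (∀ x ∈ T, ∀ y ∈ T, x * y = y * x) → Y ≤ T → T ≤ Y
  zN : ∀ g ∈ N, g * z = z * g
  zY : z ∈ Y
  z1 : z ≠ 1
  zp : z ^ p = 1
  om : ∀ y ∈ Y, y ^ p = 1 → y ∈ zpowers z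
  cY : c ∈ Y
  gen : Y ≤ zpowers c

variable {X : Type*} [Group X] [Finite X] {p : ℕ} [hpf : Fact p.Prime] {H N Y : Subgroup X} {z c : X}

theorem case_one (hp2 : p ≠ 2) (S : Setup p H N z c Y) {x₀ : X} (hx₀ : x₀ ∈ N) (hx₀Y : x₀ ∉ Y)
    (hx₀c : ∀ y ∈ Y, x₀ * y = y * x₀) : ∃ D, Good p H N z D := by
  have hp := hpf.out
  -- centralizer of `Y` in `N`
  set K : Subgroup X := N ⊓ centralizer (Y : Set X) with hK
  have hKmem : ∀ x, x ∈ K ↔ x ∈ N ∧ ∀ y ∈ Y, x * y = y * x := by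
    intro x
    rw [hK, mem_inf, mem_centralizer_iff]
    exact and_congr_right fun _ => forall₂_congr fun y hy => ⟨fun h => h.symm, fun h => h.symm⟩
  have hHK : ∀ h ∈ H, ∀ k ∈ K, h * k * h⁻¹ ∈ K := by
    intro h hh k hk
    obtain ⟨hk1, hk2⟩ := (hKmem k).mp hk
    refine (hKmem _).mpr ⟨S.HN h hh k hk1, fun y hy => ?_⟩
    have h1 : h⁻¹ * y * h ∈ Y := by
      have := S.HY h⁻¹ (H.inv_mem hh) y hy
      rwa [inv_inv] at this
    have h2 := hk2 _ h1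
    calc h * k * h⁻¹ * y = h * (k * (h⁻¹ * y * h)) * h⁻¹ := by group
      _ = y * (h * k * h⁻¹) := by rw [h2]; group
  have hYK : Y ≤ K := fun y hy => (hKmem y).mpr ⟨S.YN hy, fun y' hy' => S.Yc y hy y' hy'⟩
  obtain ⟨x₁, hx₁K, hx₁Y, hx₁p, hx₁c⟩ := exists_mod S.pg (Y := Y.subgroupOf N)
    (K := K.subgroupOf N)
    ⟨fun n hn g => by
      rw [mem_subgroupOf] at hn ⊢
      exact S.HY g (S.NH g.2) n hn⟩
    ⟨fun n hn g => by
      rw [mem_subgroupOf] at hn ⊢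
      exact hHK g (S.NH g.2) n hn⟩
    (by
      refine lt_of_le_of_ne (fun n hn => ?_) fun heq => hx₀Y ?_
      · rw [mem_subgroupOf] at hn ⊢
        exact hYK hn
      · have h1 : (⟨x₀, hx₀⟩ : N) ∈ K.subgroupOf N := by
          rw [mem_subgroupOf]; exact (hKmem x₀).mpr ⟨hx₀, hx₀c⟩
        rw [← heq, mem_subgroupOf] at h1
        exact h1)
  rw [mem_subgroupOf] at hx₁K hx₁Y hx₁p
  -- the subgroup `E`
  let E : Subgroup X :=
    { carrier := {x | x ∈ K ∧ x ^ p ∈ Y ∧ ∀ g ∈ N, g * x * g⁻¹ * x⁻¹ ∈ Y}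
      one_mem' := ⟨K.one_mem, by rw [one_pow]; exact Y.one_mem, fun g _ => by
        have : g * 1 * g⁻¹ * 1⁻¹ = 1 := by group
        rw [this]; exact Y.one_mem⟩
      mul_mem' := by
        rintro x y ⟨hx1, hx2, hx3⟩ ⟨hy1, hy2, hy3⟩
        obtain ⟨hxN, hxc⟩ := (hKmem x).mp hx1
        obtain ⟨hyN, hyc⟩ := (hKmem y).mp hy1
        refine ⟨K.mul_mem hx1 hy1, ?_, fun g hg => ?_⟩
        · obtain ⟨w, hw⟩ : ∃ w, w = (x * y)⁻¹ * (y * x) := ⟨_, rfl⟩
          have hwY : w ∈ Y := by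
            have h1 := hy3 x⁻¹ (N.inv_mem hxN)
            have h2 : w = y⁻¹ * (x⁻¹ * y * x⁻¹⁻¹ * y⁻¹) * y := by rw [hw]; group
            have h3 := hyc _ h1
            have h4 : y⁻¹ * (x⁻¹ * y * x⁻¹⁻¹ * y⁻¹) * y = x⁻¹ * y * x⁻¹⁻¹ * y⁻¹ := by
              rw [mul_assoc, ← h3]; group
            rw [h2, h4]; exact h1
          have h5 : y * x = x * y * w := by rw [hw]; group
          rw [mul_pow_of_comm h5 (hxc w hwY).symm (hyc w hwY).symm]
          exact Y.mul_mem (Y.mul_mem hx2 hy2) (Y.pow_mem hwY _)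
        · have h1 := hx3 g hg
          have h2 := hy3 g hg
          have h3 := hxc _ h2
          have h4 : g * (x * y) * g⁻¹ * (x * y)⁻¹ =
              (g * x * g⁻¹ * x⁻¹) * (x * (g * y * g⁻¹ * y⁻¹) * x⁻¹) := by group
          rw [h4, h3, mul_inv_cancel_right]
          exact Y.mul_mem h1 h2
      inv_mem' := by
        rintro x ⟨hx1, hx2, hx3⟩
        obtain ⟨hxN, hxc⟩ := (hKmem x).mp hx1
        refine ⟨K.inv_mem hx1, by rw [inv_pow]; exact Y.inv_mem hx2, fun g hg => ?_⟩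
        have h1 := hx3 g hg
        have h2 := hxc _ h1
        have h3 : g * x⁻¹ * g⁻¹ * x⁻¹⁻¹ = x⁻¹ * (g * x * g⁻¹ * x⁻¹)⁻¹ * x := by group
        have h4 : x⁻¹ * (g * x * g⁻¹ * x⁻¹)⁻¹ * x = (g * x * g⁻¹ * x⁻¹)⁻¹ := by
          have h5 : Commute x (g * x * g⁻¹ * x⁻¹) := h2
          rw [mul_assoc, ← h5.inv_right.eq]; group
        rw [h3, h4]
        exact Y.inv_mem h1 }
  have hEmem : ∀ x, x ∈ E ↔ x ∈ K ∧ x ^ p ∈ Y ∧ ∀ g ∈ N, g * x * g⁻¹ * x⁻¹ ∈ Y := fun x => Iff.rfl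
  have hEN : E ≤ N := fun x hx => ((hKmem x).mp hx.1).1
  have hYE : Y ≤ E := by
    intro y hy
    refine ⟨hYK hy, Y.pow_mem hy p, fun g hg => ?_⟩
    exact Y.mul_mem (S.HY g (S.NH hg) y hy) (Y.inv_mem hy)
  have hHE : ∀ h ∈ H, ∀ x ∈ E, h * x * h⁻¹ ∈ E := by
    rintro h hh x ⟨hx1, hx2, hx3⟩
    refine ⟨hHK h hh x hx1, ?_, fun g hg => ?_⟩
    · rw [conj_pow]; exact S.HY h hh _ hx2
    · have h1 : h⁻¹ * g * h ∈ N := by
        have := S.HN h⁻¹ (H.inv_mem hh) g hg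
        rwa [inv_inv] at this
      have h2 := S.HY h hh _ (hx3 _ h1)
      have h3 : g * (h * x * h⁻¹) * g⁻¹ * (h * x * h⁻¹)⁻¹ =
          h * ((h⁻¹ * g * h) * x * (h⁻¹ * g * h)⁻¹ * x⁻¹) * h⁻¹ := by group
      rw [h3]; exact h2
  have hx₁E : (x₁ : X) ∈ E := by
    refine ⟨hx₁K, hx₁p, fun g hg => ?_⟩
    have := hx₁c ⟨g, hg⟩
    rw [mem_subgroupOf] at this
    exact this
  -- `p`-th powers are multiplicative on `E`
  have hpow : ∀ x ∈ E, ∀ y ∈ E, (x * y) ^ p = x ^ p * y ^ p := by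
    intro x hx y hy
    obtain ⟨hxN, hxc⟩ := (hKmem x).mp hx.1
    obtain ⟨hyN, hyc⟩ := (hKmem y).mp hy.1
    obtain ⟨w, hw⟩ : ∃ w, w = (x * y)⁻¹ * (y * x) := ⟨_, rfl⟩
    have hwY : w ∈ Y := by
      have h1 := hy.2.2 x⁻¹ (N.inv_mem hxN)
      have h2 : w = y⁻¹ * (x⁻¹ * y * x⁻¹⁻¹ * y⁻¹) * y := by rw [hw]; group
      have h3 := hyc _ h1
      have h4 : y⁻¹ * (x⁻¹ * y * x⁻¹⁻¹ * y⁻¹) * y = x⁻¹ * y * x⁻¹⁻¹ * y⁻¹ := by
        rw [mul_assoc, ← h3]; group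
      rw [h2, h4]; exact h1
    have h5 : y * x = x * y * w := by rw [hw]; group
    have hcw : w ^ p = 1 := by
      -- `y ^ p` commutes with `x`
      have h6 : x * y * x⁻¹ = y * (y⁻¹ * (x * y * x⁻¹)) := by group
      have h7 : x * y = y * x * w⁻¹ := by rw [h5]; group
      have h8 : x * y * x⁻¹ = w⁻¹ * y := by
        have h9 : Commute (y * x) w⁻¹ :=
          (Commute.mul_left (hyc w hwY) (hxc w hwY)).inv_right
        rw [h7, h9.eq]; group
      have h10 : x * y ^ p * x⁻¹ = (w⁻¹) ^ p * y ^ p := by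
        rw [← conj_pow, h8]
        exact ((show Commute y w from hyc w hwY).symm.inv_left).mul_pow p
      have h11 : x * y ^ p * x⁻¹ = y ^ p := by
        rw [hxc _ hy.2.1]; group
      rw [h11] at h10
      have h12 : (w⁻¹) ^ p = 1 := by
        have := h10.symm
        rwa [mul_eq_right] at this
      rw [inv_pow] at h12
      exact inv_eq_one.mp h12
    exact mul_pow_prime hp hp2 h5 (hxc w hwY).symm (hyc w hwY).symm hcw
  -- the subgroup `D`
  let D : Subgroup X :=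
    { carrier := {x | x ∈ E ∧ x ^ p = 1}
      one_mem' := ⟨E.one_mem, one_pow _⟩
      mul_mem' := by
        rintro x y ⟨hx1, hx2⟩ ⟨hy1, hy2⟩
        exact ⟨E.mul_mem hx1 hy1, by rw [hpow x hx1 y hy1, hx2, hy2, one_mul]⟩
      inv_mem' := by
        rintro x ⟨hx1, hx2⟩
        exact ⟨E.inv_mem hx1, by rw [inv_pow, hx2, inv_one]⟩ }
  have hHD : ∀ h ∈ H, ∀ x ∈ D, h * x * h⁻¹ ∈ D := by
    rintro h hh x ⟨hx1, hx2⟩
    exact ⟨hHE h hh x hx1, by rw [conj_pow, hx2]; group⟩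
  -- an element of `D` outside `Y`
  have hex : ∃ d ∈ D, d ∉ Y := by
    by_contra hcon
    push Not at hcon
    -- `x₁ ^ p` generates `Y`
    obtain ⟨m, hm⟩ := S.gen hx₁p
    have hm' : c ^ m = (x₁ : X) ^ p := hm
    have hcx : (x₁ : X) * c = c * x₁ := ((hKmem _).mp hx₁K).2 c S.cY
    have hpm : ¬ (p : ℤ) ∣ m := by
      rintro ⟨l, rfl⟩
      have h1 : (x₁ : X) * (c ^ l)⁻¹ ∈ D := by
        refine ⟨E.mul_mem hx₁E (E.inv_mem (hYE (Y.zpow_mem S.cY l))), ?_⟩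
        have h2 : Commute (x₁ : X) (c ^ l)⁻¹ :=
          ((show Commute (x₁ : X) c from hcx).zpow_right l).inv_right
        rw [h2.mul_pow, ← hm', inv_pow, ← zpow_natCast, ← zpow_mul, mul_comm l, mul_inv_cancel]
      have h3 := hcon _ h1
      apply hx₁Y
      have h4 : (x₁ : X) = (x₁ : X) * (c ^ l)⁻¹ * c ^ l := by group
      change (x₁ : X) ∈ Y
      rw [h4]
      exact Y.mul_mem h3 (Y.zpow_mem S.cY l)
    have hcx₁ : c ∈ zpowers (x₁ : X) := by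
      -- order of `c` is a power of `p`
      obtain ⟨k, hk⟩ := (IsPGroup.iff_orderOf.mp S.pg) ⟨c, S.YN S.cY⟩
      rw [Subgroup.orderOf_mk] at hk
      have hc : IsCoprime m ((p ^ k : ℕ) : ℤ) := by
        rw [Nat.cast_pow]
        apply IsCoprime.pow_right
        rw [isCoprime_comm]
        exact (Prime.coprime_iff_not_dvd (Nat.prime_iff_prime_int.mp hp)).mpr hpm
      obtain ⟨a, b, hab⟩ := hc
      have h1 : c = (c ^ m) ^ a := by
        have h2 : c ^ ((1 : ℤ)) = c ^ (m * a) := by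
          have : (1 : ℤ) = m * a + (p ^ k : ℕ) * b := by linarith
          rw [this, zpow_add, zpow_mul c ((p ^ k : ℕ) : ℤ), zpow_natCast c (p ^ k), ← hk,
            pow_orderOf_eq_one, one_zpow, mul_one]
        rw [← zpow_mul, ← h2, zpow_one]
      rw [h1, hm']
      exact zpow_mem (pow_mem (mem_zpowers _) _) _
    have hEx : E ≤ zpowers (x₁ : X) := by
      intro x hx
      obtain ⟨i, hi⟩ : x ^ p ∈ zpowers ((x₁ : X) ^ p) := by
        obtain ⟨j, hj⟩ := S.gen hx.2.1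
        have hj' : c ^ j = x ^ p := hj
        -- `c ∈ ⟨x₁ ^ p⟩`
        have hcp : c ∈ zpowers ((x₁ : X) ^ p) := by
          obtain ⟨k, hk⟩ := (IsPGroup.iff_orderOf.mp S.pg) ⟨c, S.YN S.cY⟩
          rw [Subgroup.orderOf_mk] at hk
          have hc : IsCoprime m ((p ^ k : ℕ) : ℤ) := by
            rw [Nat.cast_pow]
            apply IsCoprime.pow_right
            rw [isCoprime_comm]
            exact (Prime.coprime_iff_not_dvd (Nat.prime_iff_prime_int.mp hp)).mpr hpm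
          obtain ⟨a, b, hab⟩ := hc
          have h2 : c ^ ((1 : ℤ)) = c ^ (m * a) := by
            have : (1 : ℤ) = m * a + (p ^ k : ℕ) * b := by linarith
            rw [this, zpow_add, zpow_mul c ((p ^ k : ℕ) : ℤ), zpow_natCast c (p ^ k), ← hk,
              pow_orderOf_eq_one, one_zpow, mul_one]
          refine ⟨a, ?_⟩
          change ((x₁ : X) ^ p) ^ a = c
          rw [← hm', ← zpow_mul, ← h2, zpow_one]
        rw [← hj']
        exact zpow_mem hcp j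
      have hi' : ((x₁ : X) ^ p) ^ i = x ^ p := hi
      have h1 : x * ((x₁ : X) ^ i)⁻¹ ∈ D := by
        refine ⟨E.mul_mem hx (E.inv_mem (E.zpow_mem hx₁E i)), ?_⟩
        rw [hpow _ hx _ (E.inv_mem (E.zpow_mem hx₁E i)), ← hi', inv_pow, ← zpow_natCast,
          ← zpow_natCast ((x₁ : X) ^ i), ← zpow_mul, ← zpow_mul, mul_comm i]
        simp
      have h2 := S.gen (hcon _ h1)
      have h3 : zpowers c ≤ zpowers (x₁ : X) := by rw [zpowers_le]; exact hcx₁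
      have h4 : x = x * ((x₁ : X) ^ i)⁻¹ * (x₁ : X) ^ i := by group
      rw [h4]
      exact mul_mem (h3 h2) (zpow_mem (mem_zpowers _) i)
    have hEY : E ≤ Y := by
      refine S.max E hEN hHE (fun x hx y hy => ?_) hYE
      obtain ⟨i, rfl⟩ := hEx hx
      obtain ⟨j, rfl⟩ := hEx hy
      exact (Commute.refl (x₁ : X)).zpow_zpow i j
    exact hx₁Y (hEY hx₁E)
  refine ⟨D, ⟨fun x hx => hEN hx.1, hHD, fun x hx => hx.2, fun d hd g hg => ?_, ?_⟩⟩
  · have h1 : g * d * g⁻¹ * d⁻¹ ∈ Y := hd.1.2.2 g hg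
    have h2 : g * d * g⁻¹ * d⁻¹ ∈ D := D.mul_mem (hHD g (S.NH hg) d hd) (D.inv_mem hd)
    exact S.om _ h1 h2.2
  · obtain ⟨d, hd, hdY⟩ := hex
    refine ⟨d, hd, ?_⟩
    by_contra hcon
    push Not at hcon
    exact hdY (S.cen d (hEN hd.1) hcon)

theorem case_three (hp2 : p ≠ 2) (S : Setup p H N z c Y)
    (hcent : ∀ x ∈ N, (∀ y ∈ Y, x * y = y * x) → x ∈ Y) (hne : ¬ N ≤ Y) :
    ∃ D, Good p H N z D := by
  have hp := hpf.out
  have hccent : ∀ x ∈ N, x * c = c * x → x ∈ Y := by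
    intro x hx hxc
    refine hcent x hx fun y hy => ?_
    obtain ⟨i, rfl⟩ := S.gen hy
    exact (show Commute x c from hxc).zpow_right i
  -- `N` is not cyclic
  have hncyc : ¬ IsCyclic N := by
    intro h
    refine hne (S.max N le_rfl S.HN (fun x hx y hy => ?_) S.YN)
    obtain ⟨g, hg⟩ := h
    obtain ⟨i, hi⟩ := hg ⟨x, hx⟩
    obtain ⟨j, hj⟩ := hg ⟨y, hy⟩
    have h1 := ((Commute.refl g).zpow_zpow i j).eq
    rw [show g ^ i = ⟨x, hx⟩ from hi, show g ^ j = ⟨y, hy⟩ from hj] at h1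
    exact congrArg Subtype.val h1
  obtain ⟨A', hA'n, ⟨hA'c, hA'p⟩, hA'card⟩ := Cfsg.Agent.S0126.result hp2 S.pg hncyc
  set A : Subgroup X := A'.map N.subtype with hA
  have hAN : A ≤ N := by
    rintro _ ⟨x, _, rfl⟩
    exact x.2
  have hAp : ∀ x ∈ A, x ^ p = 1 := by
    rintro _ ⟨x, hx, rfl⟩
    have := hA'p x hx
    rw [← map_pow, this, map_one]
  have hNA : ∀ g ∈ N, ∀ x ∈ A, g * x * g⁻¹ ∈ A := by
    rintro g hg _ ⟨x, hx, rfl⟩
    exact ⟨⟨g, hg⟩ * x * ⟨g, hg⟩⁻¹, hA'n.conj_mem x hx _, rfl⟩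
  have hAcard : Nat.card A = p ^ 2 := by
    rw [hA, Nat.card_congr (A'.equivMapOfInjective N.subtype (Subgroup.subtype_injective N)).toEquiv.symm]
    exact hA'card
  -- `z ∈ A`
  have hzA : z ∈ A := by
    have hA'ne : A' ≠ ⊥ := by
      intro h
      rw [h, Subgroup.card_bot] at hA'card
      have : 1 < p ^ 2 := Nat.one_lt_pow (by norm_num) hp.one_lt
      omega
    obtain ⟨w, hwA, hwc, hw⟩ := exists_mem_inf_center_orderOf S.pg A' hA'ne
    have hwY : (w : X) ∈ Y := by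
      refine S.cen w w.2 fun g hg => ?_
      have := Subgroup.mem_center_iff.mp hwc ⟨g, hg⟩
      exact congrArg Subtype.val this
    have hwp : (w : X) ^ p = 1 := hAp _ ⟨w, hwA, rfl⟩
    have hw1 : (w : X) ≠ 1 := by
      intro h
      have : w = 1 := Subtype.ext h
      rw [this, orderOf_one] at hw
      exact hp.one_lt.ne hw
    have h1 := mem_zpowers_swap hp S.zp (S.om _ hwY hwp) hw1
    exact (zpowers_le.mpr (show (w : X) ∈ A from ⟨w, hwA, rfl⟩)) h1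
  -- an element of `A` outside `Y`
  have hex : ∃ b ∈ A, b ∉ Y := by
    by_contra hcon
    push Not at hcon
    have h1 : A ≤ zpowers z := fun x hx => S.om x (hcon x hx) (hAp x hx)
    have h2 := Subgroup.card_le_of_le h1
    rw [hAcard, Nat.card_zpowers, orderOf_eq_prime S.zp S.z1] at h2
    have : p ^ 1 < p ^ 2 := Nat.pow_lt_pow_right hp.one_lt (by norm_num)
    rw [pow_one] at this
    omega
  obtain ⟨b, hbA, hbY⟩ := hex
  have hAY : ∀ x ∈ A, ∀ y ∈ Y, x * y * x⁻¹ * y⁻¹ ∈ zpowers z := by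
    intro x hx y hy
    refine S.om _ (Y.mul_mem (S.HY x (S.NH (hAN hx)) y hy) (Y.inv_mem hy)) (hAp _ ?_)
    have h1 : x * y * x⁻¹ * y⁻¹ = x * (y * x * y⁻¹)⁻¹ := by group
    rw [h1]
    exact A.mul_mem hx (A.inv_mem (hNA y (S.YN hy) x hx))
  -- `b` acts nontrivially on `c`
  obtain ⟨β, hβ⟩ := hAY b hbA c S.cY
  have hβ' : z ^ β = b * c * b⁻¹ * c⁻¹ := hβ
  have hβp : ¬ (p : ℤ) ∣ β := by
    rintro ⟨l, rfl⟩
    rw [zpow_mul, zpow_natCast, S.zp, one_zpow] at hβ'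
    apply hbY
    refine hccent b (hAN hbA) ?_
    have : b * c * b⁻¹ * c⁻¹ * c * b = c * b := by rw [← hβ', one_mul]
    rw [← this]; group
  have hzc : ∀ g ∈ N, Commute g z := fun g hg => S.zN g hg
  have hbc : b * c * b⁻¹ = z ^ β * c := by rw [hβ']; group
  have hbj : ∀ j : ℤ, b ^ j * c * (b ^ j)⁻¹ = z ^ (β * j) * c := by
    intro j
    have h1 : c * b * c⁻¹ = z ^ (-β) * b := by
      have h2 : b * c = z ^ β * c * b := by rw [← hbc]; group
      have h3 : c * b = z ^ (-β) * (b * c) := by rw [h2]; group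
      rw [h3]; group
    have h4 : c * b ^ j * c⁻¹ = (z ^ (-β)) ^ j * b ^ j := by
      rw [← conj_zpow, h1]
      exact (((hzc b (hAN hbA)).symm.zpow_left (-β))).mul_zpow j
    calc b ^ j * c * (b ^ j)⁻¹ = b ^ j * (c * b ^ j * c⁻¹)⁻¹ * c := by group
      _ = z ^ (β * j) * c := by
        have h5 : (z ^ (-β * j))⁻¹ = z ^ (β * j) := by
          rw [← zpow_neg]; congr 1; ring
        rw [h4, ← zpow_mul, mul_inv_rev, h5]; group
  -- characterization of `A`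
  have hchar : ∀ x ∈ N, x ^ p = 1 → (∀ y ∈ Y, x * y * x⁻¹ * y⁻¹ ∈ zpowers z) → x ∈ A := by
    intro x hx hxp hxY
    obtain ⟨γ, hγ⟩ := hxY c S.cY
    have hγ' : z ^ γ = x * c * x⁻¹ * c⁻¹ := hγ
    have hxc : x * c * x⁻¹ = z ^ γ * c := by rw [hγ']; group
    have hco : IsCoprime β (p : ℤ) := by
      rw [isCoprime_comm]
      exact (Prime.coprime_iff_not_dvd (Nat.prime_iff_prime_int.mp hp)).mpr hβp
    obtain ⟨s, t, hst⟩ := hco
    set j : ℤ := s * γ with hj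
    have hzj : z ^ (β * j) = z ^ γ := by
      have h1 : β * j = γ - p * (t * γ) := by
        rw [hj]; linear_combination γ * hst
      rw [h1, zpow_sub, zpow_mul z (p : ℤ), zpow_natCast, S.zp, one_zpow, inv_one, mul_one]
    have hbjN : b ^ j ∈ N := N.zpow_mem (hAN hbA) j
    have hyY : (b ^ j)⁻¹ * x ∈ Y := by
      refine hccent _ (N.mul_mem (N.inv_mem hbjN) hx) ?_
      have h1 : x * c = b ^ j * c * (b ^ j)⁻¹ * x := by
        rw [hbj j, hzj, ← hxc]; group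
      rw [mul_assoc, h1]; group
    obtain ⟨y, hy⟩ : ∃ y, y = (b ^ j)⁻¹ * x := ⟨_, rfl⟩
    rw [← hy] at hyY
    have hxy : x = b ^ j * y := by rw [hy]; group
    have hyp : y ^ p = 1 := by
      have h1 := hAY (b ^ j) (A.zpow_mem hbA j) y hyY
      obtain ⟨i, hi⟩ := h1
      have hi' : z ^ i = b ^ j * y * (b ^ j)⁻¹ * y⁻¹ := hi
      have h2 : y * b ^ j = b ^ j * y * (z ^ i)⁻¹ := by
        have hcom : Commute (b ^ j * y) (z ^ i)⁻¹ :=
          ((hzc _ (N.mul_mem hbjN (S.YN hyY))).zpow_right i).inv_right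
        rw [hcom.eq, hi']; group
      have h3 : (b ^ j * y) ^ p = (b ^ j) ^ p * y ^ p := by
        refine mul_pow_prime hp hp2 h2 ?_ ?_ ?_
        · exact ((hzc _ hbjN).zpow_right i).inv_right.symm
        · exact ((hzc _ (S.YN hyY)).zpow_right i).inv_right.symm
        · rw [inv_pow, ← zpow_natCast, ← zpow_mul, mul_comm, zpow_mul, zpow_natCast, S.zp,
            one_zpow, inv_one]
      rw [← hxy, hxp, hAp _ (A.zpow_mem hbA j), one_mul] at h3
      exact h3.symm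
    rw [hxy]
    refine A.mul_mem (A.zpow_mem hbA j) ?_
    exact (zpowers_le.mpr hzA) (S.om y hyY hyp)
  have hHz : ∀ h ∈ H, h * z * h⁻¹ ∈ zpowers z := by
    intro h hh
    refine S.om _ (S.HY h hh z S.zY) ?_
    rw [conj_pow, S.zp]; group
  have hHzp : ∀ h ∈ H, ∀ w ∈ zpowers z, h * w * h⁻¹ ∈ zpowers z := by
    rintro h hh _ ⟨i, rfl⟩
    change h * z ^ i * h⁻¹ ∈ zpowers z
    rw [← conj_zpow]
    exact zpow_mem (hHz h hh) i
  refine ⟨A, ⟨hAN, ?_, hAp, ?_, ?_⟩⟩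
  · intro h hh x hx
    refine hchar _ (S.HN h hh x (hAN hx)) (by rw [conj_pow, hAp x hx]; group) fun y hy => ?_
    have h1 : h⁻¹ * y * h ∈ Y := by
      have := S.HY h⁻¹ (H.inv_mem hh) y hy
      rwa [inv_inv] at this
    have h2 := hHzp h hh _ (hAY x hx _ h1)
    have h3 : h * (x * (h⁻¹ * y * h) * x⁻¹ * (h⁻¹ * y * h)⁻¹) * h⁻¹ =
        h * x * h⁻¹ * y * (h * x * h⁻¹)⁻¹ * y⁻¹ := by group
    rwa [h3] at h2
  · intro d hd g hg
    refine S.om _ ?_ (hAp _ (A.mul_mem (hNA g hg d hd) (A.inv_mem hd)))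
    refine hccent _ (N.mul_mem (N.mul_mem (N.mul_mem hg (hAN hd)) (N.inv_mem hg))
      (N.inv_mem (hAN hd))) ?_
    -- `g * d * g⁻¹` and `d` act in the same way on `c`
    obtain ⟨γ, hγ⟩ := hAY d hd c S.cY
    have hγ' : z ^ γ = d * c * d⁻¹ * c⁻¹ := hγ
    have hdc : d * c * d⁻¹ = z ^ γ * c := by rw [hγ']; group
    obtain ⟨m, hm⟩ : g⁻¹ * c * g ∈ zpowers c := by
      refine S.gen ?_
      have := S.HY g⁻¹ (H.inv_mem (S.NH hg)) c S.cY
      rwa [inv_inv] at this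
    have hm' : c ^ m = g⁻¹ * c * g := hm
    obtain ⟨e, he⟩ := S.gen S.zY
    have he' : c ^ e = z := he
    have hzm : z ^ m = z := by
      have h1 : g⁻¹ * z * g = z := by
        rw [mul_assoc, ← S.zN g hg]; group
      have h2 : g⁻¹ * z * g = z ^ m := by
        have h3 : g⁻¹ * c ^ e * g⁻¹⁻¹ = (g⁻¹ * c * g⁻¹⁻¹) ^ e := by rw [conj_zpow]
        rw [inv_inv] at h3
        rw [← he', h3, ← hm', ← zpow_mul, ← zpow_mul, mul_comm]
      rw [← h2, h1]
    have hzγ : (z ^ γ) ^ m = z ^ γ := by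
      rw [← zpow_mul, mul_comm, zpow_mul, hzm]
    have h5 : g * d * g⁻¹ * c * (g * d * g⁻¹)⁻¹ = z ^ γ * c := by
      have h6 : g * d * g⁻¹ * c * (g * d * g⁻¹)⁻¹ = g * (d * (g⁻¹ * c * g) * d⁻¹) * g⁻¹ := by group
      have h7 : d * c ^ m * d⁻¹ = (z ^ γ) ^ m * c ^ m := by
        rw [← conj_zpow, hdc]
        exact ((hzc c (S.YN S.cY)).symm.zpow_left γ).mul_zpow m
      rw [h6, ← hm', h7, hzγ, hm']
      have h8 : Commute g (z ^ γ) := (hzc g hg).zpow_right γ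
      calc g * (z ^ γ * (g⁻¹ * c * g)) * g⁻¹ = (g * z ^ γ) * g⁻¹ * c := by group
        _ = z ^ γ * c := by rw [h8.eq]; group
    -- so `g d g⁻¹ d⁻¹` commutes with `c`
    have h9 : g * d * g⁻¹ * c * (g * d * g⁻¹)⁻¹ = d * c * d⁻¹ := by rw [h5, hdc]
    have h10 : d⁻¹ * (g * d * g⁻¹) * c * (d⁻¹ * (g * d * g⁻¹))⁻¹ = c := by
      have : d⁻¹ * (g * d * g⁻¹) * c * (d⁻¹ * (g * d * g⁻¹))⁻¹ =
          d⁻¹ * (g * d * g⁻¹ * c * (g * d * g⁻¹)⁻¹) * d := by group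
      rw [this, h9]; group
    -- `A` is abelian
    have hAc : ∀ x ∈ A, ∀ y ∈ A, x * y = y * x := by
      rintro _ ⟨x, hx, rfl⟩ _ ⟨y, hy, rfl⟩
      have := congrArg (Subtype.val) (hA'c.is_comm.comm (⟨x, hx⟩ : A') ⟨y, hy⟩)
      exact congrArg (Subtype.val) this
    have h11 : g * d * g⁻¹ * d⁻¹ = d⁻¹ * (g * d * g⁻¹) :=
      hAc _ (hNA g hg d hd) _ (A.inv_mem hd)
    rw [h11]
    rw [mul_inv_eq_iff_eq_mul] at h10
    exact h10
  · refine ⟨b, hbA, c, S.YN S.cY, fun h => hbY (hccent b (hAN hbA) h.symm)⟩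

end Cfsg.Agent.H568.PGrp
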