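import Mathlib
import Cfsg.Agent.H568.NormMap

/-!
A separation lemma: if `D ≤ P` are groups of automorphisms of the abelian `p'`-group `V`, `p` odd,
`D` of exponent `p`, `[D, P] ≤ ⟨z⟩` with `z` central of order `p` and fixed point free, then some
`u ≠ 1` has its stabilizer in `P` inside `C_P(D)`.
-/

set_option autoImplicit false

namespace Cfsg.Agent.H568.Sep

open Subgroup Cfsg.Agent.H568.NormMap

variable {V : Type*} [CommGroup V]

theorem conj_fix {x y : MulAut V} {w : V} (h : x w = w) : (y * x * y⁻¹) (y w) = y w := by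
  rw [MulAut.mul_apply, MulAut.mul_apply, MulAut.inv_apply, MulEquiv.symm_apply_apply, h]

/-- A central element commutes past. -/
theorem swap_of {g x c : MulAut V} (h : g * x * g⁻¹ * x⁻¹ = c) : g * x * g⁻¹ = c * x := by
  rw [← h]; group

theorem step [Finite V] {p : ℕ} [hpf : Fact p.Prime] (hp2 : p ≠ 2) (hV : ¬ p ∣ Nat.card V)
    {z x y g : MulAut V} (hz : z ^ p = 1) (hzf : ∀ v, z v = v → v = 1)
    (hxz : Commute x z) (hgz : Commute g z)
    (hyx : y * x * y⁻¹ = x * z) {k : ℤ} (hgx : g * x * g⁻¹ = x * z ^ k) {u : V} (hu : x u = u)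
    (hu1 : u ≠ 1) (hg : g (u * y u) = u * y u) : (p : ℤ) ∣ k ∧ g u = u ∧ g (y u) = y u := by
  have hp := hpf.out
  have hnz : ∀ (m : ℤ), ¬ (p : ℤ) ∣ m → ∀ w : V, nm p (z ^ m) w = 1 := fun m hm w =>
    nm_zpow_eq_one hp hz hm (fun h => hzf _ h)
  -- norms of fixed points of `x * z ^ i`
  have key : ∀ (i j : ℤ) (w : V), (x * z ^ i) w = w → ¬ (p : ℤ) ∣ (j - i) →
      nm p (x * z ^ j) w = 1 := by
    intro i j w hw hij
    have h1 : x * z ^ j = (x * z ^ i) * z ^ (j - i) := by
      rw [mul_assoc, ← zpow_add]; congr 2; ring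
    rw [h1, nm_mul_zpow _ hw]
    · exact hnz _ hij w
    · exact (hxz.zpow_right _).mul_left ((Commute.refl z).zpow_zpow _ _)
  have key0 : ∀ (i j : ℤ) (w : V), (x * z ^ i) w = w → (p : ℤ) ∣ (j - i) →
      nm p (x * z ^ j) w = w ^ p := by
    intro i j w hw hij
    obtain ⟨l, hl⟩ := hij
    have h1 : x * z ^ j = x * z ^ i := by
      have : j = i + p * l := by linarith
      rw [this, zpow_add, zpow_mul, zpow_natCast, hz, one_zpow, mul_one]
    rw [h1, nm_of_fix _ hw]
  have hyu : (x * z ^ (1 : ℤ)) (y u) = y u := by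
    rw [zpow_one, ← hyx]; exact conj_fix hu
  have hxu : (x * z ^ (0 : ℤ)) u = u := by rw [zpow_zero, mul_one]; exact hu
  have hgu : (x * z ^ k) (g u) = g u := by
    rw [← hgx]; exact conj_fix hu
  have hgyu : (x * z ^ (k + 1)) (g (y u)) = g (y u) := by
    have : x * z ^ (k + 1) = g * (x * z ^ (1 : ℤ)) * g⁻¹ := by
      have h2 : g * (x * z ^ (1 : ℤ)) * g⁻¹ = (g * x * g⁻¹) * (g * z * g⁻¹) := by
        rw [zpow_one]; group
      have h3 : g * z * g⁻¹ = z := by rw [hgz.eq]; group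
      rw [h2, hgx, h3, zpow_add, zpow_one, mul_assoc]
    rw [this]; exact conj_fix hyu
  rw [map_mul] at hg
  have hu1' : u ^ p ≠ 1 := fun h => hu1 (pow_inj hp hV (by rw [h, one_pow]))
  have hyu1' : (y u) ^ p ≠ 1 := fun h => by
    have h4 : y u = 1 := pow_inj hp hV (by rw [h, one_pow])
    exact hu1 (by simpa using h4)
  have hp1 : ¬ (p : ℤ) ∣ 1 := by
    intro h
    have := Int.eq_one_of_dvd_one (by positivity) h
    exact hp.one_lt.ne' (by exact_mod_cast this)
  have hp1' : ¬ (p : ℤ) ∣ (0 - 1) := by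
    rw [zero_sub, dvd_neg]; exact hp1
  -- the two norms
  have e0 : nm p (x * z ^ (0 : ℤ)) (u * y u) = u ^ p := by
    rw [nm_mul, key0 0 0 u hxu (by simp), key 1 0 (y u) hyu hp1', mul_one]
  have e1 : nm p (x * z ^ (1 : ℤ)) (u * y u) = (y u) ^ p := by
    rw [nm_mul, key 0 1 u hxu (by simpa using hp1), key0 1 1 (y u) hyu (by simp), one_mul]
  have hk : (p : ℤ) ∣ k := by
    by_contra hk
    have hk' : ¬ (p : ℤ) ∣ (0 - k) := by rwa [zero_sub, dvd_neg]
    have a0 : (p : ℤ) ∣ (0 - (k + 1)) := by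
      by_contra hk1
      rw [← hg, nm_mul, key k 0 _ hgu hk', key (k + 1) 0 _ hgyu hk1, one_mul] at e0
      exact hu1' e0.symm
    have a1 : (p : ℤ) ∣ (1 - k) := by
      by_contra hk1
      have hk2 : ¬ (p : ℤ) ∣ (1 - (k + 1)) := by
        have : (1 : ℤ) - (k + 1) = 0 - k := by ring
        rwa [this]
      rw [← hg, nm_mul, key k 1 _ hgu hk1, key (k + 1) 1 _ hgyu hk2, one_mul] at e1
      exact hyu1' e1.symm
    have a2 : (p : ℤ) ∣ 2 := by
      have : (2 : ℤ) = (1 - k) - (0 - (k + 1)) := by ring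
      rw [this]; exact dvd_sub a1 a0
    have a3 : p ∣ 2 := by exact_mod_cast a2
    exact hp2 ((Nat.prime_dvd_prime_iff_eq hp Nat.prime_two).mp a3)
  have hk0 : (p : ℤ) ∣ (0 - k) := by rwa [zero_sub, dvd_neg]
  have hk1 : ¬ (p : ℤ) ∣ (0 - (k + 1)) := by
    intro h
    apply hp1
    have : (1 : ℤ) = (0 - k) - (0 - (k + 1)) := by ring
    rw [this]; exact dvd_sub hk0 h
  have h5 : g u = u := by
    rw [← hg, nm_mul, key0 k 0 _ hgu hk0, key (k + 1) 0 _ hgyu hk1, mul_one] at e0
    exact pow_inj hp hV e0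
  refine ⟨hk, h5, ?_⟩
  rw [h5] at hg
  exact mul_left_cancel hg

theorem exists_sep [Finite V] {p : ℕ} [hpf : Fact p.Prime] (hp2 : p ≠ 2) (hV : ¬ p ∣ Nat.card V) :
    ∀ n : ℕ, ∀ (P D : Subgroup (MulAut V)) (W : Subgroup V) (z : MulAut V), Nat.card P ≤ n →
      D ≤ P → z ∈ P → z ^ p = 1 → (∀ v, z v = v → v = 1) → (∀ g ∈ P, Commute g z) →
      (∀ d ∈ D, ∀ g ∈ P, g * d * g⁻¹ * d⁻¹ ∈ zpowers z) → (∀ d ∈ D, d ^ p = 1) →
      (∀ g ∈ P, ∀ w ∈ W, g w ∈ W) → W ≠ ⊥ →
      ∃ u ∈ W, u ≠ 1 ∧ ∀ g ∈ P, g u = u → ∀ d ∈ D, g * d = d * g := by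
  have hp := hpf.out
  intro n
  induction n with
  | zero =>
    intro P D W z hn
    have : 0 < Nat.card P := Nat.card_pos
    omega
  | succ n ih =>
    intro P D W z hn hDP hzP hz hzf hPz hDPz hDp hPW hW
    by_cases hcom : ∀ d ∈ D, ∀ g ∈ P, g * d = d * g
    · obtain ⟨u, hu, hu1⟩ := exists_ne_one hW
      exact ⟨u, hu, hu1, fun g hg _ d hd => hcom d hd g hg⟩
    have hex : ∃ x ∈ D, ∃ y ∈ P, y * x ≠ x * y ∧ (y ∈ D ∨ ∀ a ∈ D, ∀ b ∈ D, a * b = b * a) := by
      by_cases hD : ∀ a ∈ D, ∀ b ∈ D, a * b = b * a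
      · push Not at hcom
        obtain ⟨x, hx, y, hy, hxy⟩ := hcom
        exact ⟨x, hx, y, hy, hxy, Or.inr hD⟩
      · push Not at hD
        obtain ⟨y, hy, x, hx, hxy⟩ := hD
        exact ⟨x, hx, y, hDP hy, hxy, Or.inl hy⟩
    obtain ⟨x, hxD, y, hyP, hyx, hyD⟩ := hex
    -- the new central element
    obtain ⟨c, hc⟩ : ∃ c, c = y * x * y⁻¹ * x⁻¹ := ⟨_, rfl⟩
    have hcz : c ∈ zpowers z := hc ▸ hDPz x hxD y hyP
    have hc1 : c ≠ 1 := by
      intro h
      rw [h] at hc
      apply hyx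
      have := hc.symm
      rw [mul_inv_eq_one, mul_inv_eq_iff_eq_mul] at this
      exact this
    obtain ⟨m, hm⟩ := hcz
    have hm' : z ^ m = c := hm
    have hpm : ¬ (p : ℤ) ∣ m := by
      rintro ⟨l, rfl⟩
      apply hc1
      rw [← hm', zpow_mul, zpow_natCast, hz, one_zpow]
    have hcp : c ^ p = 1 := by
      rw [← hm', ← zpow_natCast, ← zpow_mul, mul_comm, zpow_mul, zpow_natCast, hz, one_zpow]
    have hcf : ∀ v, c v = v → v = 1 := by
      intro v hv
      exact hzf v (fix_of_zpow hp hz hpm (by rw [hm']; exact hv))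
    have hcP : c ∈ P := by rw [← hm']; exact P.zpow_mem hzP m
    have hPc : ∀ g ∈ P, Commute g c := by
      intro g hg
      rw [← hm']; exact (hPz g hg).zpow_right m
    have hzc : z ∈ zpowers c := by
      have hco : IsCoprime m (p : ℤ) := by
        rw [isCoprime_comm]
        exact (Prime.coprime_iff_not_dvd (Nat.prime_iff_prime_int.mp hp)).mpr hpm
      obtain ⟨a, b, hab⟩ := hco
      refine ⟨a, ?_⟩
      change c ^ a = z
      rw [← hm', ← zpow_mul]
      have : m * a = 1 - b * p := by linarith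
      rw [this, zpow_sub, zpow_one, mul_comm b, zpow_mul, zpow_natCast, hz, one_zpow, inv_one,
        mul_one]
    have hDPc : ∀ d ∈ D, ∀ g ∈ P, g * d * g⁻¹ * d⁻¹ ∈ zpowers c := by
      intro d hd g hg
      have h1 : zpowers z ≤ zpowers c := by rw [zpowers_le]; exact hzc
      exact h1 (hDPz d hd g hg)
    have hxP := hDP hxD
    have hyxc : y * x * y⁻¹ = x * c := by
      rw [(hPc x hxP).eq, hc]; group
    -- the centralizer of `x`
    set M : Subgroup (MulAut V) := P ⊓ centralizer {x} with hM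
    have hMx : ∀ g, g ∈ M ↔ g ∈ P ∧ g * x = x * g := by
      intro g
      rw [hM, mem_inf, mem_centralizer_singleton_iff]
    have hMlt : Nat.card M < Nat.card P := by
      have h1 : M < P := by
        refine lt_of_le_of_ne inf_le_left fun h => ?_
        have : y ∈ M := by rw [h]; exact hyP
        exact hyx ((hMx y).mp this).2
      exact Set.ncard_lt_ncard h1 (Set.toFinite _)
    set D₀ : Subgroup (MulAut V) := D ⊓ centralizer {x} with hD₀
    set W₀ : Subgroup V :=
      { carrier := {w | w ∈ W ∧ x w = w}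
        mul_mem' := fun {a b} ha hb => ⟨W.mul_mem ha.1 hb.1, by rw [map_mul, ha.2, hb.2]⟩
        one_mem' := ⟨W.one_mem, map_one _⟩
        inv_mem' := fun {a} ha => ⟨W.inv_mem ha.1, by rw [map_inv, ha.2]⟩ } with hW₀
    have hW₀mem : ∀ w, w ∈ W₀ ↔ w ∈ W ∧ x w = w := fun w => Iff.rfl
    have hW₀ne : W₀ ≠ ⊥ := by
      obtain ⟨k, w, hw, hw1, hkw⟩ := exists_fixed hp hV (x := x) (z := c) (hPc x hxP)
        (hDp x hxD) hcp hW (hPW x hxP) (hPW c hcP) (fun w _ h => hcf w h)
      have hconj : ∀ k : ℕ, y ^ k * x * (y ^ k)⁻¹ = x * c ^ k := by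
        intro k
        induction k with
        | zero => simp
        | succ k ihk =>
          have h1 : y ^ (k + 1) * x * (y ^ (k + 1))⁻¹ = y * (y ^ k * x * (y ^ k)⁻¹) * y⁻¹ := by
            rw [pow_succ']; group
          have h2 : y * (x * c ^ k) * y⁻¹ = (y * x * y⁻¹) * (y * c ^ k * y⁻¹) := by group
          have h3 : y * c ^ k * y⁻¹ = c ^ k := by
            rw [((hPc y hyP).pow_right k).eq]; group
          rw [h1, ihk, h2, hyxc, h3, mul_assoc, ← pow_succ']
      intro hbot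
      have h4 : (y ^ k)⁻¹ w ∈ W₀ := by
        refine ⟨hPW _ (P.inv_mem (P.pow_mem hyP k)) w hw, ?_⟩
        have h5 : x = (y ^ k)⁻¹ * (x * c ^ k) * ((y ^ k)⁻¹)⁻¹ := by
          rw [← hconj k]; group
        conv_lhs => rw [h5]
        exact conj_fix hkw
      rw [hbot, mem_bot] at h4
      apply hw1
      rwa [MulAut.inv_apply, MulEquiv.symm_apply_eq, map_one] at h4
    obtain ⟨u, hu, hu1, hsep⟩ := ih M D₀ W₀ c (by omega) (inf_le_inf_right _ hDP)
      ((hMx c).mpr ⟨hcP, ((hPc x hxP).eq).symm⟩) hcp hcf (fun g hg => hPc g ((hMx g).mp hg).1)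
      (fun d hd g hg => hDPc d hd.1 g ((hMx g).mp hg).1) (fun d hd => hDp d hd.1)
      (fun g hg w hw => by
        obtain ⟨hg1, hg2⟩ := (hMx g).mp hg
        refine ⟨hPW g hg1 w hw.1, ?_⟩
        rw [← MulAut.mul_apply, ← hg2, MulAut.mul_apply, hw.2])
      hW₀ne
    have huW : u ∈ W := hu.1
    have hux : x u = u := hu.2
    refine ⟨u * y u, W.mul_mem huW (hPW y hyP u huW), ?_, ?_⟩
    · -- `u * y u ≠ 1`
      intro h
      have h1 := step hp2 hV (z := c) (x := x) (y := y) (g := y) hcp hcf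
        (hPc x hxP) (hPc y hyP) hyxc (k := 1) (by rw [zpow_one]; exact hyxc) hux hu1
        (by rw [h, map_one])
      have h2 := Int.eq_one_of_dvd_one (by positivity) h1.1
      exact hp.one_lt.ne' (by exact_mod_cast h2)
    · intro g hg hgu d hd
      obtain ⟨k, hk⟩ := hDPc x hxD g hg
      have hgx : g * x * g⁻¹ = x * c ^ k := by
        have h1 : c ^ k = g * x * g⁻¹ * x⁻¹ := hk
        rw [((hPc x hxP).zpow_right k).eq, h1]; group
      obtain ⟨h1, h2, h3⟩ := step hp2 hV (z := c) (x := x) (y := y) (g := g) hcp hcf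
        (hPc x hxP) (hPc g hg) hyxc hgx hux hu1 hgu
      have hgx' : g * x = x * g := by
        obtain ⟨l, rfl⟩ := h1
        rw [zpow_mul, zpow_natCast, hcp, one_zpow, mul_one, mul_inv_eq_iff_eq_mul] at hgx
        exact hgx
      have hgM : g ∈ M := (hMx g).mpr ⟨hg, hgx'⟩
      have hg0 : ∀ d ∈ D₀, g * d = d * g := hsep g hgM h2
      rcases hyD with hyD | hab
      · -- `y ∈ D`
        have hgy : g * y = y * g := by
          obtain ⟨j, hj⟩ := hDPc y hyD g hg
          have hj' : c ^ j = g * y * g⁻¹ * y⁻¹ := hj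
          have hgy' : g * y = c ^ j * (y * g) := by rw [hj']; group
          have h4 : (c ^ j) (y u) = y u := by
            have h5 : (g * y) u = y u := by rw [MulAut.mul_apply]; exact h3
            rw [hgy', MulAut.mul_apply, MulAut.mul_apply, h2] at h5
            exact h5
          have h6 : (p : ℤ) ∣ j := by
            by_contra hj0
            have h7 := hcf _ (fix_of_zpow hp hcp hj0 h4)
            exact hu1 (by simpa using h7)
          obtain ⟨l, rfl⟩ := h6
          rw [hgy', zpow_mul, zpow_natCast, hcp, one_zpow, one_mul]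
        obtain ⟨i, hi⟩ := hDPc x hxD d (hDP hd)
        have hi' : c ^ i = d * x * d⁻¹ * x⁻¹ := hi
        have hyi : ∀ i : ℤ, y ^ i * x * (y ^ i)⁻¹ = x * c ^ i := by
          intro i
          have h8 : y ^ i * x * (y ^ i)⁻¹ * x⁻¹ = c ^ i := by
            -- conjugation by `x`: `x * y * x⁻¹ = c⁻¹ * y`
            have h9 : x * y * x⁻¹ = c⁻¹ * y := by
              have : y * x = x * c * y := by rw [← hyxc]; group
              have h10 : x * y = c⁻¹ * (y * x) := by
                rw [this, (hPc x hxP).eq]; group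
              rw [h10]; group
            have h11 : x * y ^ i * x⁻¹ = c⁻¹ ^ i * y ^ i := by
              rw [← conj_zpow, h9]
              exact ((hPc y hyP).symm.inv_left).mul_zpow i
            calc y ^ i * x * (y ^ i)⁻¹ * x⁻¹ = y ^ i * (x * y ^ i * x⁻¹)⁻¹ := by group
              _ = c ^ i := by rw [h11, inv_zpow]; group
          rw [((hPc x hxP).zpow_right i).eq, ← h8]; group
        have hd0 : (y ^ i)⁻¹ * d ∈ D₀ := by
          refine ⟨D.mul_mem (D.inv_mem (D.zpow_mem hyD i)) hd, ?_⟩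
          refine mem_centralizer_singleton_iff.mpr ?_
          have h12 : d * x = x * c ^ i * d := by
            rw [((hPc x hxP).zpow_right i).eq, hi']; group
          have h13 : (y ^ i)⁻¹ * (x * c ^ i) = x * (y ^ i)⁻¹ := by
            rw [← hyi i]; group
          calc (y ^ i)⁻¹ * d * x = (y ^ i)⁻¹ * (d * x) := by group
            _ = (y ^ i)⁻¹ * (x * c ^ i) * d := by rw [h12]; group
            _ = x * ((y ^ i)⁻¹ * d) := by rw [h13]; group
        have h14 := hg0 _ hd0
        have h15 : Commute g (y ^ i) := (show Commute g y from hgy).zpow_right i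
        have h16 : d = y ^ i * ((y ^ i)⁻¹ * d) := by group
        rw [h16]
        exact h15.mul_right h14
      · exact hg0 d ⟨hd, mem_centralizer_singleton_iff.mpr (hab d hd x hxD)⟩

end Cfsg.Agent.H568.Sep
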