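import Mathlib
import Cfsg.Agent.H568.Sep
import Cfsg.Agent.H568.Elem
import Cfsg.Agent.H568.PGrpB

/-!
For odd `p`, every nontrivial element `a` of a normal `p`-subgroup of a group `H` of automorphisms
of an abelian `p'`-group has a vector fixed by no `H`-conjugate of `a`.
-/

set_option autoImplicit false

namespace Cfsg.Agent.H568.Vector

open Subgroup Cfsg.Agent.H568.NormMap Cfsg.Agent.H568.Imprim Cfsg.Agent.H568.Elem

universe u

theorem irreducible_case {V : Type u} [CommGroup V] [Finite V] {p : ℕ} [hpf : Fact p.Prime]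
    (hp2 : p ≠ 2) (hV : ¬ p ∣ Nat.card V) (hIH : ∀ W : Subgroup V, W ≠ ⊤ → Claim p W)
    {H : Subgroup (MulAut V)}
    (hirr : ∀ W : Subgroup V, (∀ h ∈ H, ∀ w ∈ W, h w ∈ W) → W = ⊥ ∨ W = ⊤) :
    ∀ n : ℕ, ∀ N : Subgroup (MulAut V), Nat.card N ≤ n → N ≤ H →
      (∀ h ∈ H, ∀ n ∈ N, h * n * h⁻¹ ∈ N) → IsPGroup p N →
      ∀ a ∈ N, a ≠ 1 → ∃ v : V, ∀ h ∈ H, (h * a * h⁻¹) v ≠ v := by
  have hp := hpf.out
  intro n
  induction n with
  | zero =>
    intro N hn
    have : 0 < Nat.card N := Nat.card_pos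
    omega
  | succ n ih =>
    intro N hn hNH hHN hN a ha ha1
    by_cases hE : ∀ E : Subgroup (MulAut V), E ≤ N → (∀ h ∈ H, ∀ e ∈ E, h * e * h⁻¹ ∈ E) →
      (∀ a ∈ E, ∀ b ∈ E, a * b = b * a) → (∀ e ∈ E, e ^ p = 1) → ∃ x ∈ E, E ≤ zpowers x
    swap
    · push Not at hE
      obtain ⟨E, hEN, hHE, hEc, hEp, hEnc⟩ := hE
      exact of_elementary hV hIH hNH hHN hN hEN hHE hEc hEp hEnc hirr ha ha1
    have hN0 : N ≠ ⊥ := by
      intro h
      rw [h, mem_bot] at ha
      exact ha1 ha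
    obtain ⟨z, hzN, hz1, hzp, hzc, hHz, hcase⟩ :=
      Cfsg.Agent.H568.PGrp.analysis hp2 hNH hHN hN hN0 hE
    -- `z` has no fixed points
    have hzf : ∀ v, z v = v → v = 1 := by
      have hinv : ∀ h ∈ H, ∀ w ∈ fixS (zpowers z), h w ∈ fixS (zpowers z) := by
        intro h hh w hw k hk
        obtain ⟨i, hi⟩ := hk
        have hi' : z ^ i = k := hi
        have h1 : h⁻¹ * k * h ∈ zpowers z := by
          have h2 := hHz h⁻¹ (H.inv_mem hh)
          have h3 : (h⁻¹ * z * h⁻¹⁻¹) ^ i ∈ zpowers z := zpow_mem h2 i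
          rw [conj_zpow, inv_inv, hi'] at h3
          exact h3
        have h2 : k * h = h * (h⁻¹ * k * h) := by group
        rw [← MulAut.mul_apply, h2, MulAut.mul_apply, hw _ h1]
      intro v hv
      rcases hirr _ hinv with h1 | h1
      · have h2 : v ∈ fixS (zpowers z) := by
          rintro k ⟨i, rfl⟩
          exact fix_zpow hv i
        rw [h1, mem_bot] at h2
        exact h2
      · exfalso
        apply hz1
        ext w
        have h2 : w ∈ fixS (zpowers z) := by rw [h1]; trivial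
        exact h2 z (mem_zpowers z)
    -- a nontrivial vector
    obtain ⟨v₀, hv₀⟩ : ∃ v : V, v ≠ 1 := by
      by_contra hcon
      push Not at hcon
      apply ha1
      ext v
      rw [hcon v, map_one, map_one]
    rcases hcase with hcyc | ⟨D, hD⟩
    · refine ⟨v₀, fun h hh hfix => ?_⟩
      have h1 : h * a * h⁻¹ ≠ 1 := by
        intro h2
        apply ha1
        have h3 : a = h⁻¹ * (h * a * h⁻¹) * h := by group
        rw [h3, h2]; group
      obtain ⟨i, hi⟩ := hcyc _ (hHN h hh a ha) h1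
      have hi' : (h * a * h⁻¹) ^ i = z := hi
      exact hv₀ (hzf v₀ (by rw [← hi']; exact fix_zpow hfix i))
    · have htop : (⊤ : Subgroup V) ≠ ⊥ := by
        intro h
        have : v₀ ∈ (⊤ : Subgroup V) := trivial
        rw [h, mem_bot] at this
        exact hv₀ this
      obtain ⟨u, -, hu1, hu⟩ := Cfsg.Agent.H568.Sep.exists_sep hp2 hV (Nat.card N) N D ⊤ z le_rfl
        hD.le hzN hzp hzf hzc (fun d hd g hg => hD.comm d hd g hg) hD.exp (fun _ _ _ _ => trivial)
        htop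
      -- the centralizer of `D`
      let R : Subgroup (MulAut V) :=
        { carrier := {g | g ∈ N ∧ ∀ d ∈ D, g * d = d * g}
          one_mem' := ⟨N.one_mem, fun d _ => by rw [mul_one, one_mul]⟩
          mul_mem' := by
            rintro x y ⟨hx1, hx2⟩ ⟨hy1, hy2⟩
            refine ⟨N.mul_mem hx1 hy1, fun d hd => ?_⟩
            rw [mul_assoc, hy2 d hd, ← mul_assoc, hx2 d hd, mul_assoc]
          inv_mem' := by
            rintro x ⟨hx1, hx2⟩
            exact ⟨N.inv_mem hx1, fun d hd => (show Commute x d from hx2 d hd).inv_left⟩ }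
      have hHR : ∀ h ∈ H, ∀ r ∈ R, h * r * h⁻¹ ∈ R := by
        rintro h hh r ⟨hr1, hr2⟩
        refine ⟨hHN h hh r hr1, fun d hd => ?_⟩
        have h1 : h⁻¹ * d * h ∈ D := by
          have := hD.inv h⁻¹ (H.inv_mem hh) d hd
          rwa [inv_inv] at this
        have h2 := hr2 _ h1
        calc h * r * h⁻¹ * d = h * (r * (h⁻¹ * d * h)) * h⁻¹ := by group
          _ = d * (h * r * h⁻¹) := by rw [h2]; group
      have hRN : R ≤ N := fun x hx => hx.1
      by_cases haR : a ∈ R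
      · refine ih R ?_ (hRN.trans hNH) hHR (hN.to_le hRN) a haR ha1
        have h1 : R < N := by
          refine lt_of_le_of_ne hRN fun h => ?_
          obtain ⟨d, hd, g, hg, hgd⟩ := hD.ncomm
          rw [← h] at hg
          exact hgd (hg.2 d hd)
        have h2 : Nat.card R < Nat.card N := Set.ncard_lt_ncard h1 (Set.toFinite _)
        omega
      · refine ⟨u, fun h hh hfix => haR ?_⟩
        have h1 : h * a * h⁻¹ ∈ R := ⟨hHN h hh a ha, hu _ (hHN h hh a ha) hfix⟩
        have h2 := hHR h⁻¹ (H.inv_mem hh) _ h1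
        have h3 : h⁻¹ * (h * a * h⁻¹) * h⁻¹⁻¹ = a := by group
        rwa [h3] at h2

theorem claim_all {p : ℕ} [hpf : Fact p.Prime] (hp2 : p ≠ 2) :
    ∀ n : ℕ, ∀ (V : Type u) [CommGroup V] [Finite V], Nat.card V ≤ n → ¬ p ∣ Nat.card V →
      Claim p V := by
  intro n
  induction n with
  | zero =>
    intro V _ _ hn
    have : 0 < Nat.card V := Nat.card_pos
    omega
  | succ n ih =>
    intro V _ _ hn hV
    have hIH : ∀ W : Subgroup V, W ≠ ⊤ → Claim p W := by
      intro W hW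
      refine ih W ?_ fun h => hV (h.trans W.card_subgroup_dvd_card)
      have h1 : Nat.card W < Nat.card V := by
        have h2 : W < ⊤ := lt_top_iff_ne_top.mpr hW
        have h3 : Nat.card W < Nat.card (⊤ : Subgroup V) := Set.ncard_lt_ncard h2 (Set.toFinite _)
        rwa [Subgroup.card_top] at h3
      omega
    intro H N hNH hHN hN a ha ha1
    by_cases hirr : ∀ W : Subgroup V, (∀ h ∈ H, ∀ w ∈ W, h w ∈ W) → W = ⊥ ∨ W = ⊤
    · exact irreducible_case hp2 hV hIH hirr _ N le_rfl hNH hHN hN a ha ha1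
    · push Not at hirr
      obtain ⟨W, hW, hW0, hW1⟩ := hirr
      exact of_reducible hV hIH hNH hHN hN ha ha1 hW hW0 hW1

/-- The internal version: `V` an abelian `p'`-subgroup of `G` normalized by `H`, `N` a normal
`p`-subgroup of `H`, `a ∈ N` not centralizing `V`. Then some `v ∈ V` is centralized by no
`H`-conjugate of `a`. -/
theorem exists_vector {G : Type u} [Group G] [Finite G] {p : ℕ} [hpf : Fact p.Prime] (hp2 : p ≠ 2)
    {V H N : Subgroup G} (hVc : ∀ x ∈ V, ∀ y ∈ V, x * y = y * x) (hV : ¬ p ∣ Nat.card V)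
    (hHV : ∀ h ∈ H, ∀ v ∈ V, h * v * h⁻¹ ∈ V) (hNH : N ≤ H)
    (hHN : ∀ h ∈ H, ∀ n ∈ N, h * n * h⁻¹ ∈ N) (hN : IsPGroup p N) {a : G} (ha : a ∈ N)
    (haV : ∃ v ∈ V, a * v ≠ v * a) : ∃ v ∈ V, ∀ h ∈ H, (h * a * h⁻¹) * v ≠ v * (h * a * h⁻¹) := by
  let _ : CommGroup V := { (inferInstance : Group V) with
    mul_comm := fun x y => Subtype.ext (hVc x x.2 y y.2) }
  let ρ : H →* MulAut V :=
    { toFun := fun h =>
        { toFun := fun v => ⟨h * v * (h : G)⁻¹, hHV h h.2 v v.2⟩
          invFun := fun v => ⟨(h : G)⁻¹ * v * h, by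
            have := hHV _ (H.inv_mem h.2) v v.2
            rwa [inv_inv] at this⟩
          left_inv := fun v => Subtype.ext (by simp only; group)
          right_inv := fun v => Subtype.ext (by simp only; group)
          map_mul' := fun v w => Subtype.ext (by
            change (h : G) * ((v : G) * (w : G)) * (h : G)⁻¹ =
              ((h : G) * v * (h : G)⁻¹) * ((h : G) * w * (h : G)⁻¹)
            group) }
      map_one' := by
        ext v
        change (1 : G) * v * (1 : G)⁻¹ = v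
        group
      map_mul' := fun h k => by
        ext v
        change ((h : G) * (k : G)) * v * ((h : G) * (k : G))⁻¹ =
          (h : G) * ((k : G) * v * (k : G)⁻¹) * (h : G)⁻¹
        group }
  have hρ : ∀ (h : H) (v : V), ((ρ h v : V) : G) = h * v * (h : G)⁻¹ := fun h v => rfl
  obtain ⟨v, hv⟩ := claim_all (p := p) hp2 (Nat.card V) V le_rfl hV ρ.range
    ((N.subgroupOf H).map ρ)
    (by
      rintro _ ⟨n, _, rfl⟩
      exact ⟨n, rfl⟩)
    (by
      rintro _ ⟨h, rfl⟩ _ ⟨n, hn, rfl⟩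
      exact ⟨h * n * h⁻¹, hHN h h.2 n hn, by simp⟩)
    ((hN.comap_of_injective H.subtype (Subgroup.subtype_injective H)).map ρ)
    (ρ ⟨a, hNH ha⟩) ⟨⟨a, hNH ha⟩, ha, rfl⟩
    (by
      intro h
      obtain ⟨v, hv, hav⟩ := haV
      apply hav
      have h1 : ((ρ ⟨a, hNH ha⟩ ⟨v, hv⟩ : V) : G) = v := by rw [h]; rfl
      rw [hρ] at h1
      rw [mul_inv_eq_iff_eq_mul] at h1
      exact h1)
  refine ⟨v, v.2, fun h hh heq => ?_⟩
  refine hv (ρ ⟨h, hh⟩) ⟨_, rfl⟩ (Subtype.ext ?_)
  rw [← map_mul, ← map_inv, ← map_mul, hρ]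
  change (h * a * h⁻¹) * v * (h * a * h⁻¹)⁻¹ = v
  rw [heq]; group

end Cfsg.Agent.H568.Vector
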